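import Cfsg.Agent.Lib.MX.Bis5
import Cfsg.Agent.Lib.FGS.IdxP

/-! Control of fusion on a normal subgroup inside the Frattini subgroup, through the characteristic family. -/

set_option autoImplicit false
set_option linter.unusedSectionVars false
set_option linter.unusedVariables false
set_option linter.style.haveILetI false

open Subgroup Cfsg Cfsg.FusionSystem CfsgLib.Fusion MulAction

namespace CfsgLib.Bis

universe u
variable {Ω : Type u} [Group Ω] {S : Subgroup Ω} [Finite S] {p : ℕ} [Fact p.Prime]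

theorem exists_twist {F : FusionSystem S} {c : Subgroup (KK S) → ℕ} (hgr : ∀ E, c E ≠ 0 → IsGr F E)
    (hmk : ∀ (Q Q' : Subgroup Ω) (E E' : Subgroup (KK S)), IsGrOn F Q E → IsGrOn F Q' E' → F.IsConj Q Q' → mk c E = mk c E')
    (hJ : ¬ p ∣ JJ c) {P : Subgroup Ω} {φ : P →* Ω} (hφ : φ ∈ F.Hom P) :
    ∃ f : Equiv.Perm (YS c), (∀ (w : ↥S) (y : YS c), f (w • y) = w • f y) ∧
      ∀ (a : P) (y : YS c), f (LL c ⟨a, (source_le F hφ) a.2⟩ y) = LL c ⟨φ a, (F.le_of_mem hφ).2 a⟩ (f y) := by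
  have hPS := source_le F hφ
  have hφS : ∀ x, φ x ∈ S := (F.le_of_mem hφ).2
  haveI : Finite P := finite_of_le hPS
  haveI := nonempty_YS hJ
  let Θ₁ : (↥P × ↥S) →* KK S := (Subgroup.inclusion hPS).prodMap (MonoidHom.id ↥S)
  let Θ₂ : (↥P × ↥S) →* KK S := (φ.codRestrict S hφS).prodMap (MonoidHom.id ↥S)
  have hD1 : ∀ (D : Subgroup (↥P × ↥S)) (x y : ↥S), (x, y) ∈ D.map Θ₁ → (x : Ω) ∈ P ∧ (y : Ω) ∈ S := by
    rintro D x y ⟨m, hm, hv⟩
    have h1 : (⟨m.1, hPS m.1.2⟩ : ↥S) = x := congrArg Prod.fst hv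
    have h2 : m.2 = y := congrArg Prod.snd hv
    rw [← h1]
    exact ⟨m.1.2, y.2⟩
  have hD2 : ∀ (D : Subgroup (↥P × ↥S)) (a b : ↥S), (a, b) ∈ D.map Θ₂ ↔ ∃ (x y : ↥S) (hx : (x : Ω) ∈ P) (hy : (y : Ω) ∈ S),
      (x, y) ∈ D.map Θ₁ ∧ φ ⟨x, hx⟩ = a ∧ S.subtype ⟨y, hy⟩ = b := by
    intro D a b
    constructor
    · rintro ⟨m, hm, hv⟩
      have h1 : (⟨φ m.1, hφS _⟩ : ↥S) = a := congrArg Prod.fst hv
      have h2 : m.2 = b := congrArg Prod.snd hv
      refine ⟨⟨m.1, hPS m.1.2⟩, m.2, m.1.2, m.2.2, ⟨m, hm, rfl⟩, congrArg Subtype.val h1, congrArg Subtype.val h2⟩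
    · rintro ⟨x, y, hx, hy, ⟨m, hm, hv⟩, h₁, h₂⟩
      refine ⟨m, hm, ?_⟩
      have h1 : (⟨m.1, hPS m.1.2⟩ : ↥S) = x := congrArg Prod.fst hv
      have h2 : m.2 = y := congrArg Prod.snd hv
      subst h1 h2
      exact Prod.ext (Subtype.ext h₁) (Subtype.ext h₂)
  have hmarks : ∀ D : Subgroup (↥P × ↥S), fx (Y := YS c) (D.map Θ₁) = fx (Y := YS c) (D.map Θ₂) := by
    intro D
    rw [fx_YS, fx_YS]
    by_cases hg : IsGr F (D.map Θ₁)
    · obtain ⟨Q₁, hQ₁⟩ := hg
      obtain ⟨Q₂, hQ₂, hc⟩ := isGr_map hφ (subtype_mem F le_rfl) hQ₁ (hD1 D) (hD2 D)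
      exact hmk Q₁ Q₂ _ _ hQ₁ hQ₂ hc
    · rw [mk_eq_zero hgr hg, mk_eq_zero hgr]
      rintro ⟨Q₂, hQ₂⟩
      refine hg ?_
      obtain ⟨φ', hφ', hφ'v⟩ := F.inv_mem hφ
      obtain ⟨Q₁, hQ₁, -⟩ := isGr_map (D' := D.map Θ₁) hφ' (subtype_mem F (le_refl S)) hQ₂ (by
        intro x y hxy
        obtain ⟨a, b, ha, hb, -, h₁, h₂⟩ := ((hD2 D) x y).1 hxy
        exact ⟨⟨_, h₁⟩, y.2⟩) (by
        intro a b
        constructor
        · intro hab
          obtain ⟨hx, hy⟩ := hD1 D a b hab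
          refine ⟨⟨_, hφS ⟨a, hx⟩⟩, b, ⟨_, rfl⟩, hy, ((hD2 D) _ _).2 ⟨a, b, hx, hy, hab, rfl, rfl⟩, hφ'v ⟨a, hx⟩, rfl⟩
        · rintro ⟨x, y, hx, hy, hxy, h₁, h₂⟩
          obtain ⟨a', b', ha', hb', hab', e₁, e₂⟩ := ((hD2 D) x y).1 hxy
          have e₃ : (⟨(x : Ω), hx⟩ : φ.range) = ⟨φ ⟨a', ha'⟩, ⟨_, rfl⟩⟩ := Subtype.ext e₁.symm
          have h₁' : φ' ⟨φ ⟨a', ha'⟩, ⟨_, rfl⟩⟩ = a := by rw [← e₃]; exact h₁
          rw [hφ'v] at h₁'
          have : a' = a := Subtype.ext h₁'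
          have h' : b' = y := Subtype.ext e₂
          have h'' : y = b := Subtype.ext h₂
          subst this h' h''
          exact hab')
      exact ⟨Q₁, hQ₁⟩
  obtain ⟨f, hf⟩ := exists_equivariant (Y := YS c) Θ₁ Θ₂ hmarks
  have hfw : ∀ (w : ↥S) (y : YS c), f (w • y) = w • f y := by
    intro w y
    have := hf (1, w) y
    have e₁ : Θ₁ (1, w) = (1, w) := Prod.ext rfl rfl
    have e₂ : Θ₂ (1, w) = (1, w) := Prod.ext (map_one (φ.codRestrict S hφS)) rfl
    rw [e₁, e₂] at this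
    exact this
  refine ⟨f, hfw, fun a y => ?_⟩
  have := hf (a, 1) y
  exact this

section gen
variable {W Y A : Type*} [Group W] [MulAction W Y] [CommGroup A] (χ : W →* A)
variable [Fintype (orbitRel.Quotient W Y)] [Finite (orbitRel.Quotient W Y)]

theorem Tv_cycle2 {σ : orbitRel.Quotient W Y → Y} (hfree : ∀ (w : W) (y : Y), w • y = y → w = 1)
    (hσ : ∀ i, Quotient.mk (orbitRel W Y) (σ i) = i) (g : Equiv.Perm Y)
    (hg : ∀ (w : W) (y : Y), g (w • y) = w • g y) (v : orbitRel.Quotient W Y → A)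
    (hv : ∀ i, v (bar g hg i) = v i)
    (H : ∀ (ℓ : ℕ) (y : Y) (w : W), (g ^ ℓ) y = w • y → χ w = v (Quotient.mk (orbitRel W Y) y) ^ ℓ) :
    Tv χ σ g = ∏ i, v i := by
  let π := bar g hg
  let N : orbitRel.Quotient W Y → A := fun i => χ (nf σ (g (σ i)))
  have hstep : ∀ i, g (σ i) = nf σ (g (σ i)) • σ (π i) := by
    intro i
    have h1 := nf_spec hσ (g (σ i))
    have h2 : Quotient.mk (orbitRel W Y) (g (σ i)) = π i := by
      change _ = bar g hg i
      rw [← bar_mk g hg, hσ i]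
    rwa [h2] at h1
  have hpow : ∀ (i) (k : ℕ), ∃ w : W, (g ^ k) (σ i) = w • σ (π^[k] i) ∧ χ w = ∏ j ∈ Finset.range k, N (π^[j] i) := by
    intro i k
    induction k with
    | zero => exact ⟨1, by simp, by simp⟩
    | succ k ih =>
      obtain ⟨w, hw, hχ⟩ := ih
      refine ⟨w * nf σ (g (σ (π^[k] i))), ?_, ?_⟩
      · rw [pow_succ', Equiv.Perm.mul_apply, hw, hg]
        conv_lhs => rw [hstep]
        rw [mul_smul, Function.iterate_succ_apply']
      · rw [map_mul, hχ, Finset.prod_range_succ]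
  have hinj : Function.Injective π := π.injective
  have hper : ∀ i, 0 < Function.minimalPeriod π i := fun i =>
    Function.minimalPeriod_pos_of_mem_periodicPts (hinj.mem_periodicPts i)
  have hvit : ∀ i k, v (π^[k] i) = v i := by
    intro i k
    induction k with
    | zero => rfl
    | succ k ih => rw [Function.iterate_succ_apply']; exact (hv _).trans ih
  classical
  have main : ∀ B : Finset (orbitRel.Quotient W Y), (∀ i ∈ B, π i ∈ B) → ∏ i ∈ B, N i = ∏ i ∈ B, v i := by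
    intro B
    induction' hn : B.card using Nat.strong_induction_on with n ih generalizing B
    intro hB
    rcases B.eq_empty_or_nonempty with rfl | ⟨i, hi⟩
    · simp
    let ℓ := Function.minimalPeriod π i
    let O : Finset (orbitRel.Quotient W Y) := (Finset.range ℓ).image (fun k => π^[k] i)
    have hOmem : ∀ x, x ∈ O ↔ ∃ k, π^[k] i = x := by
      intro x
      simp only [O, Finset.mem_image, Finset.mem_range]
      constructor
      · rintro ⟨k, -, h⟩; exact ⟨k, h⟩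
      · rintro ⟨k, rfl⟩
        exact ⟨k % ℓ, Nat.mod_lt _ (hper i), Function.iterate_mod_minimalPeriod_eq⟩
    have hiter : ∀ k, π^[k] i ∈ B := by
      intro k
      induction k with
      | zero => exact hi
      | succ k ih => rw [Function.iterate_succ_apply']; exact hB _ ih
    have hOB : O ⊆ B := by
      intro x hx
      obtain ⟨k, rfl⟩ := (hOmem x).1 hx
      exact hiter k
    have hinjO : Set.InjOn (fun k => π^[k] i) (Finset.range ℓ : Set ℕ) := by
      intro a ha b hb hab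
      exact Function.iterate_injOn_Iio_minimalPeriod (by simpa using ha) (by simpa using hb) hab
    have hOc : O.card = ℓ := by
      simp only [O]
      rw [Finset.card_image_of_injOn hinjO, Finset.card_range]
    have hOprod : ∏ x ∈ O, N x = ∏ x ∈ O, v x := by
      simp only [O]
      rw [Finset.prod_image hinjO, Finset.prod_image hinjO]
      obtain ⟨w, hw, hχ⟩ := hpow i ℓ
      rw [← hχ]
      have : π^[ℓ] i = i := Function.iterate_minimalPeriod
      rw [this] at hw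
      rw [H ℓ _ _ hw, hσ, Finset.prod_congr rfl (fun k _ => hvit i k)]
      simp
    have hlt : (B \ O).card < n := by
      have : 0 < O.card := by rw [hOc]; exact hper i
      have := Finset.card_sdiff_add_card_eq_card hOB
      omega
    have hrest := ih _ hlt (B \ O) rfl (by
      intro x hx
      rw [Finset.mem_sdiff] at hx ⊢
      refine ⟨hB x hx.1, fun hc => hx.2 ?_⟩
      obtain ⟨k, hk⟩ := (hOmem _).1 hc
      refine (hOmem _).2 ⟨k + (ℓ - 1), hinj ?_⟩
      rw [← Function.iterate_succ_apply' π, ← hk]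
      have e : (k + (ℓ - 1)).succ = k + ℓ := by
        have := hper i
        omega
      rw [e, Function.iterate_add_apply π k ℓ]
      congr 1
      exact Function.iterate_minimalPeriod)
    rw [← Finset.prod_sdiff hOB, hrest, hOprod, Finset.prod_sdiff hOB]
  exact main Finset.univ (fun _ _ => Finset.mem_univ _)

theorem nf_mul {σ : orbitRel.Quotient W Y → Y} (hfree : ∀ (w : W) (y : Y), w • y = y → w = 1)
    (hσ : ∀ i, Quotient.mk (orbitRel W Y) (σ i) = i) (g h : Equiv.Perm Y)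
    (hg : ∀ (w : W) (y : Y), g (w • y) = w • g y) (hh : ∀ (w : W) (y : Y), h (w • y) = w • h y) (i) :
    nf σ ((g * h) (σ i)) = nf σ (h (σ i)) * nf σ (g (σ (bar h hh i))) := by
  refine nf_eq hfree hσ (i := bar g hg (bar h hh i)) ?_
  have h1 := nf_spec hσ (h (σ i))
  have h2 : Quotient.mk (orbitRel W Y) (h (σ i)) = bar h hh i := by
    rw [← bar_mk h hh, hσ i]
  rw [h2] at h1
  have h3 := nf_spec hσ (g (σ (bar h hh i)))
  have h4 : Quotient.mk (orbitRel W Y) (g (σ (bar h hh i))) = bar g hg (bar h hh i) := by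
    rw [← bar_mk g hg, hσ]
  rw [h4] at h3
  rw [Equiv.Perm.mul_apply]
  conv_lhs => rw [h1, hg, h3]
  rw [mul_smul]

/-- independence of the section among sections with values in a normal subgroup -/
theorem prod_indep {T : Subgroup W} [T.Normal] [Finite W] (f : ↥T →* A)
    (hfinv : ∀ (s : W) (x : ↥T), f ⟨s * x * s⁻¹, Subgroup.Normal.conj_mem ‹T.Normal› x x.2 s⟩ = f x)
    (hfree : ∀ (w : W) (y : Y), w • y = y → w = 1)
    {σ σ' : orbitRel.Quotient W Y → Y} (hσ : ∀ i, Quotient.mk (orbitRel W Y) (σ i) = i)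
    (hσ' : ∀ i, Quotient.mk (orbitRel W Y) (σ' i) = i) (g : Equiv.Perm Y)
    (hg : ∀ (w : W) (y : Y), g (w • y) = w • g y)
    (h₁ : ∀ i, nf σ (g (σ i)) ∈ T) (h₂ : ∀ i, nf σ' (g (σ' i)) ∈ T) :
    ∏ i, f ⟨_, h₁ i⟩ = ∏ i, f ⟨_, h₂ i⟩ := by
  let s : orbitRel.Quotient W Y → W := fun i => nf σ (σ' i)
  have hs : ∀ i, σ' i = s i • σ i := by
    intro i
    have := nf_spec hσ (σ' i)
    rw [hσ' i] at this
    exact this
  have key : ∀ i, nf σ' (g (σ' i)) = s i * nf σ (g (σ i)) * (s (bar g hg i))⁻¹ := by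
    intro i
    refine nf_eq hfree hσ' (i := bar g hg i) ?_
    have h1 := nf_spec hσ (g (σ i))
    have h2 : Quotient.mk (orbitRel W Y) (g (σ i)) = bar g hg i := by
      rw [← bar_mk g hg, hσ i]
    rw [h2] at h1
    rw [mul_smul, mul_smul, hs (bar g hg i), inv_smul_smul, ← h1, hs i, hg]
  have hv : ∀ i, s i * (s (bar g hg i))⁻¹ ∈ T := by
    intro i
    have h3 := h₂ i
    rw [key] at h3
    have h4 : s i * (nf σ (g (σ i)))⁻¹ * (s i)⁻¹ ∈ T := by
      exact Subgroup.Normal.conj_mem ‹T.Normal› _ (T.inv_mem (h₁ i)) (s i)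
    have := T.mul_mem h4 h3
    have e : s i * (nf σ (g (σ i)))⁻¹ * (s i)⁻¹ * (s i * nf σ (g (σ i)) * (s (bar g hg i))⁻¹) = s i * (s (bar g hg i))⁻¹ := by group
    rwa [e] at this
  -- a coset function
  let rp : W → W := fun w => Quotient.out (QuotientGroup.mk w : W ⧸ T)
  have hrp : ∀ w, w * (rp w)⁻¹ ∈ T := by
    intro w
    have h3 : (QuotientGroup.mk (rp w) : W ⧸ T) = QuotientGroup.mk w := Quotient.out_eq' _
    have h4 := QuotientGroup.eq.1 h3
    have h6 : w⁻¹ * ((rp w)) ∈ T := by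
      have := T.inv_mem h4
      simpa using this
    have h7 := Subgroup.Normal.conj_mem ‹T.Normal› _ (T.inv_mem h6) (w)
    have e' : w * (w⁻¹ * rp w)⁻¹ * w⁻¹ = w * (rp w)⁻¹ := by group
    rwa [e'] at h7
  have hrpeq : ∀ i, rp (s i) = rp (s (bar g hg i)) := by
    intro i
    have : (QuotientGroup.mk (s i) : W ⧸ T) = QuotientGroup.mk (s (bar g hg i)) := by
      rw [QuotientGroup.eq]
      have h3 := hv i
      have h5 := T.inv_mem (Subgroup.Normal.mem_comm ‹T.Normal› h3)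
      have e2 : ((s (bar g hg i))⁻¹ * s i)⁻¹ = (s i)⁻¹ * s (bar g hg i) := by group
      rwa [e2] at h5
    simp only [rp]
    rw [this]
  let G : orbitRel.Quotient W Y → A := fun i => f ⟨s i * (rp (s i))⁻¹, hrp _⟩
  have hf2 : ∀ i, f ⟨_, h₂ i⟩ = f ⟨_, h₁ i⟩ * (G i * (G (bar g hg i))⁻¹) := by
    intro i
    have e₁ : (⟨nf σ' (g (σ' i)), h₂ i⟩ : ↥T) = ⟨s i * nf σ (g (σ i)) * (s i)⁻¹, Subgroup.Normal.conj_mem ‹T.Normal› _ (h₁ i) _⟩ * (⟨s i * (rp (s i))⁻¹, hrp _⟩ * (⟨s (bar g hg i) * (rp (s (bar g hg i)))⁻¹, hrp _⟩)⁻¹) := by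
      apply Subtype.ext
      simp only [Subgroup.coe_mul, InvMemClass.coe_inv]
      rw [key, hrpeq i]
      group
    rw [e₁, map_mul, map_mul, map_inv]
    congr 1
    exact hfinv (s i) ⟨_, h₁ i⟩
  simp_rw [hf2, Finset.prod_mul_distrib, Finset.prod_inv_distrib]
  rw [Equiv.prod_comp (bar g hg) G]
  simp

end gen

end CfsgLib.Bis
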