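import Cfsg.Agent.Lib.MX.Bis6

/-! Invariant homomorphisms on a normal subgroup inside the Frattini subgroup are stable. -/

set_option autoImplicit false
set_option linter.unusedSectionVars false
set_option linter.unusedVariables false
set_option linter.style.haveILetI false

open Subgroup Cfsg Cfsg.FusionSystem CfsgLib.Fusion MulAction

namespace CfsgLib.Bis

universe u
variable {Ω : Type u} [Group Ω] {S : Subgroup Ω} [Finite S] {p : ℕ} [Fact p.Prime]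

theorem thmA {F : FusionSystem S} {c : Subgroup (KK S) → ℕ} (hgr : ∀ E, c E ≠ 0 → IsGr F E)
    (hmk : ∀ (Q Q' : Subgroup Ω) (E E' : Subgroup (KK S)), IsGrOn F Q E → IsGrOn F Q' E' → F.IsConj Q Q' → mk c E = mk c E')
    (hJ : ¬ p ∣ JJ c)
    (T : Subgroup ↥S) [hTn : T.Normal] (hTΦ : T ≤ frattini ↥S)
    (H1 : ∀ y : YS c, ∃ s : ↥S, ∀ x x' : ↥S, ((x, x') : KK S) ∈ stabilizer (KK S) y → (s * x * s⁻¹)⁻¹ * x' ∈ T)
    {A : Type*} [CommGroup A] [Finite A] (hA : Nat.card A = p) (f : ↥T →* A)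
    (hfinv : ∀ (s : ↥S) (x : ↥T), f ⟨s * x * s⁻¹, Subgroup.Normal.conj_mem hTn x x.2 s⟩ = f x)
    {P : Subgroup Ω} {φ : P →* Ω} (hφ : φ ∈ F.Hom P) (a : P)
    (ha : (⟨a, (source_le F hφ) a.2⟩ : ↥S) ∈ T) (ha' : (⟨φ a, (F.le_of_mem hφ).2 a⟩ : ↥S) ∈ T) :
    f ⟨_, ha'⟩ = f ⟨_, ha⟩ := by
  classical
  have hfree := free_action (F := F) (c := c) hgr
  have hgood : ∀ y : YS c, ∃ y₁ : YS c, (∃ s : ↥S, y₁ = ((1, s⁻¹) : KK S) • y) ∧
      ∀ x x' : ↥S, ((x, x') : KK S) ∈ stabilizer (KK S) y₁ → x⁻¹ * x' ∈ T := by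
    intro y
    obtain ⟨s, hs⟩ := H1 y
    refine ⟨((1, s⁻¹) : KK S) • y, ⟨s, rfl⟩, ?_⟩
    intro x x' hm
    have hm' : ((x, x') : KK S) • ((1, s⁻¹) : KK S) • y = ((1, s⁻¹) : KK S) • y := hm
    have h1 : ((x, s * x' * s⁻¹) : KK S) • y = y := by
      have e : ((x, s * x' * s⁻¹) : KK S) = ((1, s⁻¹) : KK S)⁻¹ * ((x, x') : KK S) * (1, s⁻¹) :=
        Prod.ext (by simp) (by simp)
      rw [e, mul_smul, mul_smul, hm', inv_smul_smul]
    have h2 := hs x _ h1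
    have e2 : (s * x * s⁻¹)⁻¹ * (s * x' * s⁻¹) = s * (x⁻¹ * x') * s⁻¹ := by group
    rw [e2] at h2
    have h3 := Subgroup.Normal.conj_mem hTn _ h2 s⁻¹
    simpa [mul_assoc] using h3
  choose gd hgd₁ hgd₂ using hgood
  let oK : YS c → orbitRel.Quotient (KK S) (YS c) := fun y => Quotient.mk (orbitRel (KK S) (YS c)) y
  let yh : orbitRel.Quotient (KK S) (YS c) → YS c := fun q => gd (Quotient.out q)
  have hyhorb : ∀ y, ∃ g : KK S, g • yh (oK y) = y := by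
    intro y
    obtain ⟨s, hs⟩ := hgd₁ (Quotient.out (oK y))
    have h : (Quotient.out (oK y)) ∈ orbit (KK S) y := Quotient.exact (Quotient.out_eq (oK y))
    obtain ⟨g, hg⟩ := h
    refine ⟨g⁻¹ * ((1, s⁻¹) : KK S)⁻¹, ?_⟩
    change _ • gd (Quotient.out (oK y)) = y
    rw [hs, mul_smul, inv_smul_smul, inv_smul_eq_iff]
    exact hg.symm
  have hex : ∀ i : orbitRel.Quotient ↥S (YS c), ∃ a : ↥S,
      Quotient.mk (orbitRel ↥S (YS c)) (((a, a) : KK S) • yh (oK (sec c i))) = i := by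
    intro i
    obtain ⟨g, hg⟩ := hyhorb (sec c i)
    refine ⟨g.1, ?_⟩
    have e : ((g.1, g.1) : KK S) • yh (oK (sec c i)) = (g.1 * g.2⁻¹) • sec c i := by
      rw [smul_inr]
      conv_rhs => rw [← hg]
      rw [smul_smul]
      congr 1
      exact Prod.ext (by simp) (by simp)
    rw [e]
    refine Eq.trans ?_ (sec_spec c i)
    exact Quotient.sound (s := orbitRel ↥S (YS c)) (show _ ∈ orbit ↥S (sec c i) from ⟨_, rfl⟩)
  choose aa haa using hex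
  let σ : orbitRel.Quotient ↥S (YS c) → YS c := fun i => ((aa i, aa i) : KK S) • yh (oK (sec c i))
  have hσ : ∀ i, Quotient.mk (orbitRel ↥S (YS c)) (σ i) = i := haa
  have hoK2 : ∀ (g : KK S) (y : YS c), oK (g • y) = oK y := fun g y =>
    Quotient.sound (s := orbitRel (KK S) (YS c)) (show g • y ∈ orbit (KK S) y from ⟨g, rfl⟩)
  have hoK3 : ∀ y, oK (yh (oK y)) = oK y := by
    intro y
    obtain ⟨g, hg⟩ := hyhorb y
    conv_rhs => rw [← hg]
    rw [hoK2]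
  have hoKσ : ∀ i, oK (σ i) = oK (sec c i) := by
    intro i
    change oK (_ • _) = _
    rw [hoK2, hoK3]
  have hT : ∀ (b : ↥S) i, nf σ (LL c b (σ i)) * b ∈ T := by
    intro b i
    have hj : Quotient.mk (orbitRel ↥S (YS c)) (LL c b (σ i)) = bar (LL c b) (LL_comm c b) i := by
      rw [← bar_mk (LL c b) (LL_comm c b), hσ i]
    have hn := nf_spec hσ (LL c b (σ i))
    rw [hj] at hn
    obtain ⟨j, hjd⟩ : ∃ j, j = bar (LL c b) (LL_comm c b) i := ⟨_, rfl⟩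
    rw [← hjd] at hn
    obtain ⟨n, hnd⟩ : ∃ n, n = nf σ (LL c b (σ i)) := ⟨_, rfl⟩
    rw [← hnd] at hn ⊢
    have hq : oK (sec c j) = oK (sec c i) := by
      rw [← hoKσ j, ← hoKσ i]
      have h₁ : oK (n • σ j) = oK (σ j) := by
        rw [smul_inr, hoK2]
      rw [← h₁, ← hn, LL_apply, hoK2]
    have hσj : σ j = ((aa j, aa j) : KK S) • yh (oK (sec c i)) := by
      change _ • yh (oK (sec c j)) = _
      rw [hq]
    have hσi : σ i = ((aa i, aa i) : KK S) • yh (oK (sec c i)) := rfl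
    rw [LL_apply, hσj, hσi, smul_inr, smul_smul, smul_smul] at hn
    have hst : (((aa j, aa j) : KK S)⁻¹ * ((1, n) : KK S)⁻¹ * (((b, 1) : KK S) * (aa i, aa i))) • yh (oK (sec c i)) = yh (oK (sec c i)) := by
      rw [mul_smul, hn, ← mul_smul]
      have : ((aa j, aa j) : KK S)⁻¹ * ((1, n) : KK S)⁻¹ * (((1, n) : KK S) * (aa j, aa j)) = 1 := by group
      rw [this, one_smul]
    have hgoodq := hgd₂ (Quotient.out (oK (sec c i)))
    have hm := hgoodq ((aa j)⁻¹ * (b * aa i)) ((aa j)⁻¹ * (n⁻¹ * aa i)) (by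
      have e : (((aa j)⁻¹ * (b * aa i), (aa j)⁻¹ * (n⁻¹ * aa i)) : KK S) = ((aa j, aa j) : KK S)⁻¹ * ((1, n) : KK S)⁻¹ * (((b, 1) : KK S) * (aa i, aa i)) :=
        Prod.ext (by simp [mul_assoc]) (by simp [mul_assoc])
      rw [e]
      exact hst)
    have e3 : ((aa j)⁻¹ * (b * aa i))⁻¹ * ((aa j)⁻¹ * (n⁻¹ * aa i)) = (aa i)⁻¹ * (n * b)⁻¹ * (aa i)⁻¹⁻¹ := by group
    rw [e3] at hm
    have h4 := Subgroup.Normal.conj_mem hTn _ hm (aa i)
    have e4 : aa i * ((aa i)⁻¹ * (n * b)⁻¹ * (aa i)⁻¹⁻¹) * (aa i)⁻¹ = (n * b)⁻¹ := by group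
    rw [e4] at h4
    simpa using T.inv_mem h4
  -- the homomorphism
  let U : ↥S → A := fun b => ∏ i, f ⟨_, hT b i⟩
  have hUmul : ∀ a b, U (a * b) = U a * U b := by
    intro a b
    have key : ∀ i, f ⟨_, hT (a * b) i⟩ = f ⟨_, hT b i⟩ * f ⟨_, hT a (bar (LL c b) (LL_comm c b) i)⟩ := by
      intro i
      have e₀ : nf σ (LL c (a * b) (σ i)) = nf σ (LL c b (σ i)) * nf σ (LL c a (σ (bar (LL c b) (LL_comm c b) i))) := by
        rw [map_mul]
        exact nf_mul hfree hσ _ _ (LL_comm c a) (LL_comm c b) i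
      have e₁ : (⟨_, hT (a * b) i⟩ : ↥T) = ⟨_, hT b i⟩ * ⟨b⁻¹ * (nf σ (LL c a (σ (bar (LL c b) (LL_comm c b) i))) * a) * b⁻¹⁻¹, Subgroup.Normal.conj_mem hTn _ (hT a _) b⁻¹⟩ := by
        apply Subtype.ext
        simp only [Subgroup.coe_mul]
        rw [e₀]
        group
      rw [e₁, map_mul]
      congr 1
      exact hfinv b⁻¹ ⟨_, hT a _⟩
    simp only [U]
    simp_rw [key, Finset.prod_mul_distrib]
    rw [Equiv.prod_comp (bar (LL c b) (LL_comm c b)) (fun j => f ⟨_, hT a j⟩)]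
    exact mul_comm _ _
  let Uh : ↥S →* A := MonoidHom.mk' U hUmul
  have hUT : ∀ t ∈ T, Uh t = 1 := by
    intro t ht
    have hle : frattini ↥S ≤ Uh.ker := by
      have hp : p.Prime := Fact.out
      have hd : Nat.card Uh.range ∣ p := by
        rw [← hA]; exact Subgroup.card_subgroup_dvd_card _
      have hidx : Uh.ker.index = Nat.card Uh.range := Subgroup.index_ker Uh
      rcases (Nat.dvd_prime hp).1 hd with h1 | h1
      · rw [h1, Subgroup.index_eq_one] at hidx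
        rw [hidx]; exact le_top
      · rw [h1] at hidx
        exact frattini_le_coatom (CfsgLib.FGS.isCoatom_of_index_p _ hidx)
    exact hle (hTΦ ht)
  have hN : ∀ (t : ↥S) (ht : t ∈ T) i, nf σ (LL c t (σ i)) ∈ T := by
    intro t ht i
    have := T.mul_mem (hT t i) (T.inv_mem ht)
    simpa using this
  have hV : ∀ (t : ↥S) (ht : t ∈ T), (∏ i, f ⟨_, hN t ht i⟩) * f ⟨t, ht⟩ ^ JJ c = 1 := by
    intro t ht
    have h₀ := hUT t ht
    have h₁ : Uh t = ∏ i, f ⟨_, hT t i⟩ := rfl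
    have h₂ : ∀ i, f ⟨_, hT t i⟩ = f ⟨_, hN t ht i⟩ * f ⟨t, ht⟩ := by
      intro i
      rw [← map_mul]
      rfl
    rw [h₁] at h₀
    simp_rw [h₂, Finset.prod_mul_distrib] at h₀
    rw [Finset.prod_const, Finset.card_univ, card_R hgr] at h₀
    exact h₀
  -- transport
  obtain ⟨fp, hW, hL⟩ := exists_twist hgr hmk hJ hφ
  let σ₂ : orbitRel.Quotient ↥S (YS c) → YS c := fun j => fp (σ ((bar fp hW).symm j))
  have hσ₂ : ∀ i, Quotient.mk (orbitRel ↥S (YS c)) (σ₂ i) = i := by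
    intro i
    change Quotient.mk (orbitRel ↥S (YS c)) (fp _) = i
    rw [← bar_mk fp hW, hσ, Equiv.apply_symm_apply]
  have e : ∀ j, σ₂ (bar fp hW j) = fp (σ j) := by
    intro j
    change fp (σ ((bar fp hW).symm (bar fp hW j))) = _
    rw [Equiv.symm_apply_apply]
  have hn₂ : ∀ i, nf σ₂ (LL c ⟨φ a, (F.le_of_mem hφ).2 a⟩ (σ₂ (bar fp hW i))) = nf σ (LL c ⟨a, (source_le F hφ) a.2⟩ (σ i)) := by
    intro i
    refine nf_eq hfree hσ₂ (i := bar fp hW (Quotient.mk (orbitRel ↥S (YS c)) (LL c ⟨a, (source_le F hφ) a.2⟩ (σ i)))) ?_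
    rw [e, e, ← hL a]
    conv_lhs => rw [nf_spec hσ (LL c ⟨a, (source_le F hφ) a.2⟩ (σ i))]
    rw [hW]
  have hmem₂ : ∀ j, nf σ₂ (LL c ⟨φ a, (F.le_of_mem hφ).2 a⟩ (σ₂ j)) ∈ T := by
    intro j
    have := hn₂ ((bar fp hW).symm j)
    rw [Equiv.apply_symm_apply] at this
    rw [this]
    exact hN _ ha _
  have hind := prod_indep f hfinv hfree hσ hσ₂ (LL c ⟨φ a, (F.le_of_mem hφ).2 a⟩) (LL_comm c _) (hN _ ha') hmem₂
  have hre : ∏ j, f ⟨_, hmem₂ j⟩ = ∏ i, f ⟨_, hN _ ha i⟩ := by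
    rw [← Equiv.prod_comp (bar fp hW)]
    refine Finset.prod_congr rfl fun i _ => ?_
    congr 1
    exact Subtype.ext (hn₂ i)
  have h₁ := hV _ ha
  have h₂ := hV _ ha'
  rw [hind, hre] at h₂
  have h₃ : f ⟨_, ha'⟩ ^ JJ c = f ⟨_, ha⟩ ^ JJ c := by
    exact mul_left_cancel (h₂.trans h₁.symm)
  have hp : p.Prime := Fact.out
  have hcop : Nat.Coprime (JJ c) p := ((Nat.Prime.coprime_iff_not_dvd hp).2 hJ).symm
  have h₄ : (f ⟨_, ha'⟩ * (f ⟨_, ha⟩)⁻¹) ^ JJ c = 1 := by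
    rw [mul_pow, inv_pow, h₃, mul_inv_cancel]
  have h₅ : (f ⟨_, ha'⟩ * (f ⟨_, ha⟩)⁻¹) ^ p = 1 := by
    rw [← hA]; exact pow_card_eq_one'
  have h₆ := Nat.eq_one_of_dvd_coprimes hcop (orderOf_dvd_of_pow_eq_one h₄) (orderOf_dvd_of_pow_eq_one h₅)
  rw [orderOf_eq_one_iff] at h₆
  exact mul_inv_eq_one.1 h₆

end CfsgLib.Bis
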