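import Cfsg.Agent.Lib.MX.Bis7
import Cfsg.Agent.Lib.PLocal.RankTwo
import Cfsg.Agent.Lib.Solv.PGroup

/-! Step one: all maps are trivial modulo the Frattini subgroup. -/

set_option autoImplicit false
set_option linter.unusedSectionVars false
set_option linter.unusedVariables false
set_option linter.style.haveILetI false

open Subgroup Cfsg Cfsg.FusionSystem CfsgLib.Fusion MulAction
open scoped commutatorElement

namespace CfsgLib.Bis

universe u
variable {Ω : Type u} [Group Ω] {S : Subgroup Ω} [Finite S] {p : ℕ} [Fact p.Prime]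

theorem prod_eq_prod_fixed {M R A : Type*} [Group M] [Finite M] [MulAction M R] [Fintype R] [CommGroup A]
    (hM : IsPGroup p M) (hA : ∀ a : A, a ^ p = 1) (v : R → A) (hv : ∀ (m : M) (i : R), v (m • i) = v i) :
    ∃ Fx : Finset R, (∀ i, i ∈ Fx ↔ ∀ m : M, m • i = i) ∧ ∏ i, v i = ∏ i ∈ Fx, v i := by
  classical
  refine ⟨Finset.univ.filter (fun i => ∀ m : M, m • i = i), fun i => by simp, ?_⟩
  have main : ∀ B : Finset R, (∀ (m : M), ∀ i ∈ B, m • i ∈ B) →
      ∏ i ∈ B, v i = ∏ i ∈ B.filter (fun i => ∀ m : M, m • i = i), v i := by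
    intro B
    induction' hn : (B.filter (fun i => ¬ ∀ m : M, m • i = i)).card using Nat.strong_induction_on with n ih generalizing B
    intro hB
    by_cases hne : (B.filter (fun i => ¬ ∀ m : M, m • i = i)).Nonempty
    · obtain ⟨i, hi⟩ := hne
      obtain ⟨hiB, hif⟩ := Finset.mem_filter.1 hi
      let O : Finset R := B.filter (· ∈ orbit M i)
      have hOm : ∀ y, y ∈ O ↔ ∃ m : M, m • i = y := by
        intro y; simp only [O, Finset.mem_filter, mem_orbit_iff]
        exact ⟨fun h => h.2, fun ⟨m, hm⟩ => ⟨hm ▸ hB m i hiB, m, hm⟩⟩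
      have hOc : (O : Set R) = orbit M i := by
        ext y; rw [Finset.mem_coe, hOm]; exact mem_orbit_iff.symm
      have hcard : O.card = (stabilizer M i).index := by
        rw [index_stabilizer, ← hOc, Set.ncard_coe_finset]
      have hpdvd : p ∣ O.card := by
        rw [hcard]
        have hne1 : (stabilizer M i).index ≠ 1 := by
          intro h
          rw [Subgroup.index_eq_one] at h
          exact hif (fun m => by
            have : m ∈ stabilizer M i := by rw [h]; exact Subgroup.mem_top m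
            exact this)
        obtain ⟨k, hk⟩ := hM.index (stabilizer M i)
        rw [hk] at hne1 ⊢
        rcases k with _ | k
        · simp at hne1
        · exact dvd_pow_self p (Nat.succ_ne_zero k)
      have hOprod : ∏ y ∈ O, v y = 1 := by
        have : ∀ y ∈ O, v y = v i := by
          intro y hy
          obtain ⟨m, rfl⟩ := (hOm y).1 hy
          exact hv m i
        rw [Finset.prod_congr rfl this, Finset.prod_const]
        obtain ⟨d, hd⟩ := hpdvd
        rw [hd, pow_mul, hA, one_pow]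
      have hOB : O ⊆ B := Finset.filter_subset _ _
      have hO0 : ∀ y ∈ O, ¬ ∀ m : M, m • y = y := by
        intro y hy hfix
        obtain ⟨m, rfl⟩ := (hOm y).1 hy
        apply hif
        intro m'
        have := hfix (m * m' * m⁻¹)
        rw [mul_smul, mul_smul, inv_smul_smul, smul_left_cancel_iff] at this
        exact this
      have hst : ∀ (m : M), ∀ y ∈ B \ O, m • y ∈ B \ O := by
        intro m y hy
        rw [Finset.mem_sdiff] at hy ⊢
        refine ⟨hB m y hy.1, fun hc => hy.2 ?_⟩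
        obtain ⟨m', hm'⟩ := (hOm _).1 hc
        exact (hOm _).2 ⟨m⁻¹ * m', by rw [mul_smul, hm', inv_smul_smul]⟩
      have hlt : ((B \ O).filter (fun i => ¬ ∀ m : M, m • i = i)).card < n := by
        rw [← hn]
        refine Finset.card_lt_card (Finset.ssubset_iff_of_subset ?_ |>.2 ⟨i, hi, ?_⟩)
        · intro y hy
          rw [Finset.mem_filter, Finset.mem_sdiff] at hy
          exact Finset.mem_filter.2 ⟨hy.1.1, hy.2⟩
        · intro hc
          rw [Finset.mem_filter, Finset.mem_sdiff] at hc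
          exact hc.1.2 ((hOm _).2 ⟨1, one_smul _ _⟩)
      have hrest := ih _ hlt (B \ O) rfl hst
      rw [← Finset.prod_sdiff hOB, hOprod, mul_one, hrest]
      congr 1
      ext y
      simp only [Finset.mem_filter, Finset.mem_sdiff]
      constructor
      · exact fun h => ⟨h.1.1, h.2⟩
      · exact fun h => ⟨⟨h.1, fun hc => hO0 y hc h.2⟩, h.2⟩
    · have : B.filter (fun i => ∀ m : M, m • i = i) = B := by
        rw [Finset.filter_eq_self]
        intro i hi
        by_contra h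
        exact hne ⟨i, Finset.mem_filter.2 ⟨hi, h⟩⟩
      rw [this]
  exact main Finset.univ (fun _ _ _ => Finset.mem_univ _)

theorem exists_normal_index_p' {R : Type*} [Group R] [Finite R] (hR : IsPGroup p R) (T : Subgroup R) (hTn : T.Normal) (hT : T ≠ ⊥) :
    ∃ M : Subgroup R, M ≤ T ∧ M.Normal ∧ Nat.card T = p * Nat.card M ∧ ∀ x ∈ T, ∀ g : R, g * x * g⁻¹ * x⁻¹ ∈ M := by
  have hpp : p.Prime := Fact.out
  obtain ⟨C, hC⟩ : ∃ C, C = ⁅T, (⊤ : Subgroup R)⁆ := ⟨_, rfl⟩
  have hCT : C ≤ T := by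
    rw [hC, Subgroup.commutator_le]
    intro x hx g _
    have e : ⁅x, g⁆ = x * (g * x⁻¹ * g⁻¹) := by
      simp only [commutatorElement_def]; group
    rw [e]
    exact T.mul_mem hx (hTn.conj_mem _ (T.inv_mem hx) g)
  have hne : C ≠ T := by
    intro h
    apply hT
    refine CfsgLib.PLocal.eq_bot_of_le_commutator (p := p) (P := ⊤) (hR.to_subgroup T) (hR.to_subgroup ⊤) ?_
      (by rw [← hC]; exact le_of_eq h.symm)
    rw [Subgroup.normalizer_eq_top_iff.mpr hTn]
  have hlt : C < T := lt_of_le_of_ne hCT hne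
  obtain ⟨m, hm⟩ := IsPGroup.iff_card.mp (hR.to_subgroup T)
  obtain ⟨c, hc⟩ := IsPGroup.iff_card.mp (hR.to_subgroup C)
  have hcm : c < m := by
    have h1 : Nat.card C < Nat.card T := lt_of_le_of_ne (Subgroup.card_le_of_le hlt.le)
      (fun e => hlt.ne (Subgroup.eq_of_le_of_card_ge hlt.le e.ge))
    rw [hm, hc] at h1
    exact (Nat.pow_lt_pow_iff_right hpp.one_lt).mp h1
  have hC' : Nat.card (C.subgroupOf T) = p ^ c := by
    rw [← hc]
    exact Nat.card_congr (Subgroup.subgroupOfEquivOfLe hCT).toEquiv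
  have hdvd : p ^ (m - 1) ∣ Nat.card T := by
    rw [hm]; exact pow_dvd_pow _ (Nat.sub_le _ _)
  obtain ⟨K, hK, hCK⟩ := Sylow.exists_subgroup_card_pow_prime_le p hdvd (C.subgroupOf T) hC'
    (by omega)
  have hcm' : ∀ (x : ↥T) (g : R), ⁅(x : R), g⁆ ∈ C := fun x g => by
    rw [hC]; exact Subgroup.commutator_mem_commutator x.2 (mem_top g)
  have hmem : ∀ (x : ↥T) (g : R), (⁅(x : R), g⁆)⁻¹ ∈ K.map T.subtype := by
    intro x g
    refine inv_mem ?_
    exact ⟨⟨_, hCT (hcm' x g)⟩, hCK (mem_subgroupOf.mpr (hcm' x g)), rfl⟩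
  refine ⟨K.map T.subtype, map_subtype_le K, ?_, ?_, ?_⟩
  · constructor
    rintro _ ⟨x, hx, rfl⟩ g
    have e : g * (T.subtype x) * g⁻¹ = (⁅(x : R), g⁆)⁻¹ * (T.subtype x) := by
      simp only [commutatorElement_def, coe_subtype]; group
    rw [e]
    exact mul_mem (hmem x g) ⟨x, hx, rfl⟩
  · have h2 : Nat.card ↥(K.map T.subtype) = Nat.card K :=
      Nat.card_congr (Subgroup.equivMapOfInjective _ _ T.subtype_injective).symm.toEquiv
    rw [h2, hK, hm, ← pow_succ']
    congr 1
    omega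
  · intro x hx g
    have := hmem ⟨x, hx⟩ g
    have e : g * x * g⁻¹ * x⁻¹ = (⁅x, g⁆)⁻¹ := by
      simp only [commutatorElement_def]; group
    rw [e]; exact this

/-- the left action of `S` on the orbit set -/
def barHom (c : Subgroup (KK S) → ℕ) : ↥S →* Equiv.Perm (orbitRel.Quotient ↥S (YS c)) :=
  MonoidHom.mk' (fun a => bar (LL c a) (LL_comm c a)) (by
    intro a b
    ext i
    induction i using Quotient.inductionOn with
    | _ y =>
      change Quotient.mk (orbitRel ↥S (YS c)) (LL c (a * b) y) = Quotient.mk (orbitRel ↥S (YS c)) (LL c a (LL c b y))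
      rw [map_mul]
      rfl)

theorem step_a (hS : IsPGroup p S) {F : FusionSystem S} {c : Subgroup (KK S) → ℕ} (hgr : ∀ E, c E ≠ 0 → IsGr F E)
    (hmk : ∀ (Q Q' : Subgroup Ω) (E E' : Subgroup (KK S)), IsGrOn F Q E → IsGrOn F Q' E' → F.IsConj Q Q' → mk c E = mk c E')
    (hJ : ¬ p ∣ JJ c)
    (hinner : ∀ (Q : Subgroup Ω) (ρ : Q →* Ω), ρ ∈ F.Hom Q → Q = S → ∃ u : ↥S, ∀ x : Q, ρ x = u * (x : Ω) * (u : Ω)⁻¹)
    (hΦ : F.StronglyClosed ((frattini ↥S).map S.subtype))
    {A : Type*} [CommGroup A] [Finite A] (hA : Nat.card A = p) (f : ↥S →* A)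
    {P : Subgroup Ω} {φ : P →* Ω} (hφ : φ ∈ F.Hom P) (a : P) :
    f ⟨φ a, (F.le_of_mem hφ).2 a⟩ = f ⟨a, (source_le F hφ) a.2⟩ := by
  classical
  have hp : p.Prime := Fact.out
  have hAp : ∀ b : A, b ^ p = 1 := fun b => by rw [← hA]; exact pow_card_eq_one'
  have hfree := free_action (F := F) (c := c) hgr
  obtain ⟨hcomm, hpowΦ⟩ := CfsgLib.Solv.pgroup_commutator_pow_le_frattini hS
  -- `f` kills the Frattini subgroup
  have hfΦ : ∀ t ∈ frattini ↥S, f t = 1 := by
    have hle : frattini ↥S ≤ f.ker := by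
      have hd : Nat.card f.range ∣ p := by
        rw [← hA]; exact Subgroup.card_subgroup_dvd_card _
      have hidx : f.ker.index = Nat.card f.range := Subgroup.index_ker f
      rcases (Nat.dvd_prime hp).1 hd with h1 | h1
      · rw [h1, Subgroup.index_eq_one] at hidx
        rw [hidx]; exact le_top
      · rw [h1] at hidx
        exact frattini_le_coatom (CfsgLib.FGS.isCoatom_of_index_p _ hidx)
    exact fun t ht => hle ht
  have hfcomm : ∀ g x : ↥S, f (g * x * g⁻¹) = f x := by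
    intro g x
    rw [map_mul, map_mul, map_inv, mul_comm (f g), mul_inv_cancel_right]
  -- images of Frattini elements stay in the Frattini subgroup
  have hstabΦ : ∀ (y : YS c) (x x' : ↥S), ((x, x') : KK S) ∈ stabilizer (KK S) y → x ∈ frattini ↥S → x' ∈ frattini ↥S := by
    intro y x x' hm hx
    obtain ⟨Q, ρ, hρ, hG⟩ := stab_isGr hgr y
    obtain ⟨h₁, h₂⟩ := (hG x x').1 hm
    have hle : Q ⊓ (frattini ↥S).map S.subtype ≤ Q := inf_le_left
    have hr := hΦ.2 (Q ⊓ (frattini ↥S).map S.subtype) inf_le_right _ (restrict_mem F hρ hle) ⟨x, h₁, ⟨x, hx, rfl⟩⟩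
    have e : (ρ.comp (Subgroup.inclusion hle)) ⟨x, h₁, ⟨x, hx, rfl⟩⟩ = x' := h₂
    rw [e] at hr
    obtain ⟨t, ht, hte⟩ := hr
    have : t = x' := Subtype.ext hte
    rwa [← this]
  have hV : ∀ x : ↥S, Tv f (sec c) (LL c x) = ((f x)⁻¹) ^ JJ c := by
    intro x
    let Pv : YS c → A → Prop := fun y b => ∃ x' x'' : ↥S, ((x', x'') : KK S) ∈ stabilizer (KK S) y ∧ x'⁻¹ * x ∈ frattini ↥S ∧ f x'' = b
    have huniq : ∀ y b b', Pv y b → Pv y b' → b = b' := by
      rintro y b b' ⟨x₁, x₂, h₁, h₂, rfl⟩ ⟨x₃, x₄, h₃, h₄, rfl⟩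
      have hm : ((x₁⁻¹ * x₃, x₂⁻¹ * x₄) : KK S) ∈ stabilizer (KK S) y := by
        have := (stabilizer (KK S) y).mul_mem ((stabilizer (KK S) y).inv_mem h₁) h₃
        exact this
      have hΦ₁ : x₁⁻¹ * x₃ ∈ frattini ↥S := by
        have := (frattini ↥S).mul_mem h₂ ((frattini ↥S).inv_mem h₄)
        have e : x₁⁻¹ * x * (x₃⁻¹ * x)⁻¹ = x₁⁻¹ * x₃ := by group
        rwa [e] at this
      have h5 := hfΦ _ (hstabΦ y _ _ hm hΦ₁)
      rw [map_mul, map_inv, inv_mul_eq_one] at h5
      exact h5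
    have hinv : ∀ (g : KK S) y b, Pv y b → Pv (g • y) b := by
      rintro g y b ⟨x₁, x₂, h₁, h₂, rfl⟩
      refine ⟨g.1 * x₁ * g.1⁻¹, g.2 * x₂ * g.2⁻¹, ?_, ?_, hfcomm _ _⟩
      · have e : ((g.1 * x₁ * g.1⁻¹, g.2 * x₂ * g.2⁻¹) : KK S) = g * (x₁, x₂) * g⁻¹ := rfl
        rw [mem_stabilizer_iff, e, mul_smul, mul_smul, inv_smul_smul, smul_left_cancel_iff]
        exact h₁
      · have hc : ⁅g.1, x₁⁻¹⁆ ∈ frattini ↥S := hcomm (Subgroup.commutator_mem_commutator (mem_top _) (mem_top _))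
        have := (frattini ↥S).mul_mem hc h₂
        have e : ⁅g.1, x₁⁻¹⁆ * (x₁⁻¹ * x) = (g.1 * x₁ * g.1⁻¹)⁻¹ * x := by
          simp only [commutatorElement_def]; group
        rwa [e] at this
    let vh : YS c → A := fun y => if h : ∃ b, Pv y b then h.choose else 1
    have hvh : ∀ y b, Pv y b → vh y = b := by
      intro y b hb
      have h : ∃ b, Pv y b := ⟨b, hb⟩
      simp only [vh]
      rw [dif_pos h]
      exact huniq y _ _ h.choose_spec hb
    have hvhg : ∀ (g : KK S) y, vh (g • y) = vh y := by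
      intro g y
      by_cases h : ∃ b, Pv y b
      · obtain ⟨b, hb⟩ := h
        rw [hvh y b hb, hvh _ b (hinv g y b hb)]
      · have h' : ¬ ∃ b, Pv (g • y) b := by
          rintro ⟨b, hb⟩
          have := hinv g⁻¹ _ b hb
          rw [inv_smul_smul] at this
          exact h ⟨b, this⟩
        simp only [vh]
        rw [dif_neg h, dif_neg h']
    let v : orbitRel.Quotient ↥S (YS c) → A := fun i => (vh (sec c i))⁻¹
    have hvmk : ∀ y, v (Quotient.mk (orbitRel ↥S (YS c)) y) = (vh y)⁻¹ := by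
      intro y
      have h := nf_spec (sec_spec c) y
      simp only [v]
      conv_rhs => rw [h, smul_inr, hvhg]
    have hvbar : ∀ (m : ↥S) i, v (bar (LL c m) (LL_comm c m) i) = v i := by
      intro m i
      conv_lhs => rw [← sec_spec c i]
      rw [bar_mk, hvmk, LL_apply, hvhg]
    have hmain : Tv f (sec c) (LL c x) = ∏ i, v i := by
      refine Tv_cycle2 f hfree (sec_spec c) (LL c x) (LL_comm c x) v (hvbar x) ?_
      intro ℓ y w h
      rw [← map_pow, LL_apply, smul_inr] at h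
      have hfix : ((x ^ ℓ, w⁻¹) : KK S) ∈ stabilizer (KK S) y := by
        rw [mem_stabilizer_iff]
        have e : ((x ^ ℓ, w⁻¹) : KK S) = (1, w⁻¹) * (x ^ ℓ, 1) := Prod.ext (by simp) (by simp)
        rw [e, mul_smul, h, smul_smul]
        have e' : ((1, w⁻¹) : KK S) * (1, w) = 1 := Prod.ext (by simp) (by simp)
        rw [e', one_smul]
      rw [hvmk]
      by_cases hd : p ∣ ℓ
      · obtain ⟨d, rfl⟩ := hd
        have h₁ : x ^ (p * d) ∈ frattini ↥S := by
          rw [pow_mul]; exact (frattini ↥S).pow_mem (hpowΦ x) d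
        have h₂ := hfΦ _ (hstabΦ y _ _ hfix h₁)
        rw [map_inv, inv_eq_one] at h₂
        rw [h₂, pow_mul, hAp, one_pow]
      · obtain ⟨k, hk⟩ := hS x
        obtain ⟨q, hq⟩ : ∃ q, q = p ^ (k + 1) := ⟨_, rfl⟩
        have hxq : x ^ q = 1 := by
          rw [hq, pow_succ, pow_mul, hk, one_pow]
        have hcop : Nat.Coprime ℓ q := by
          rw [hq]; exact Nat.Coprime.pow_right _ ((Nat.Prime.coprime_iff_not_dvd hp).2 hd).symm
        have h1q : 1 < q := by
          rw [hq]; exact Nat.one_lt_pow (Nat.succ_ne_zero k) hp.one_lt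
        obtain ⟨e, he⟩ := Nat.exists_mul_mod_eq_one_of_coprime hcop h1q
        have hee : ℓ * e = 1 + q * (ℓ * e / q) := by
          have := Nat.div_add_mod (ℓ * e) q
          rw [he.2] at this
          omega
        have hxe : (x ^ ℓ) ^ e = x := by
          rw [← pow_mul, hee, pow_add, pow_one, pow_mul, hxq, one_pow, mul_one]
        have hst : ((x, (w⁻¹) ^ e) : KK S) ∈ stabilizer (KK S) y := by
          have := (stabilizer (KK S) y).pow_mem hfix e
          rw [Prod.pow_mk, hxe] at this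
          exact this
        have hP : Pv y (f ((w⁻¹) ^ e)) := ⟨x, _, hst, by simpa using (frattini ↥S).one_mem, rfl⟩
        rw [hvh y _ hP, map_pow, map_inv]
        have e5 : (((f w)⁻¹ ^ e)⁻¹) ^ ℓ = f w ^ (ℓ * e) := by
          simp only [inv_pow, inv_inv]
          rw [← pow_mul, mul_comm]
        rw [e5, hee, pow_add, pow_one, pow_mul]
        have h₃ : f w ^ q = 1 := by
          rw [hq, pow_succ, pow_mul, pow_right_comm, hAp, one_pow]
        rw [h₃, one_pow, mul_one]
    rw [hmain]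
    letI : MulAction ↥S (orbitRel.Quotient ↥S (YS c)) := MulAction.compHom _ (barHom c)
    obtain ⟨Fx, hFx, hprod⟩ := prod_eq_prod_fixed (p := p) hS hAp v (fun m i => hvbar m i)
    obtain ⟨Fx₀, hFx₀, hprod₀⟩ := prod_eq_prod_fixed (p := p) hS hAp (fun _ : orbitRel.Quotient ↥S (YS c) => (f x)⁻¹) (fun m i => rfl)
    have hFe : Fx₀ = Fx := by
      ext i; rw [hFx, hFx₀]
    have hfixv : ∀ i ∈ Fx, v i = (f x)⁻¹ := by
      intro i hi
      have hi' := (hFx i).1 hi
      simp only [v]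
      congr 1
      obtain ⟨Q, ρ, hρ, hG⟩ := stab_isGr hgr (sec c i)
      have hall : ∀ m : ↥S, ∃ w : ↥S, ((m, w) : KK S) ∈ stabilizer (KK S) (sec c i) := by
        intro m
        have h₁ : Quotient.mk (orbitRel ↥S (YS c)) (LL c m (sec c i)) = Quotient.mk (orbitRel ↥S (YS c)) (sec c i) := by
          rw [sec_spec c i, ← bar_mk (LL c m) (LL_comm c m), sec_spec c i]
          exact hi' m
        have h₂ : LL c m (sec c i) ∈ orbit ↥S (sec c i) := Quotient.exact h₁
        obtain ⟨w, hw⟩ := h₂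
        refine ⟨w⁻¹, ?_⟩
        rw [mem_stabilizer_iff]
        have e : ((m, w⁻¹) : KK S) = (1, w⁻¹) * (m, 1) := Prod.ext (by simp) (by simp)
        rw [e, mul_smul]
        have h₃ : ((m, 1) : KK S) • sec c i = ((1, w) : KK S) • sec c i := hw.symm
        rw [h₃, smul_smul]
        have e' : ((1, w⁻¹) : KK S) * (1, w) = 1 := Prod.ext (by simp) (by simp)
        rw [e', one_smul]
      have hQ : Q = S := by
        refine le_antisymm (source_le F hρ) ?_
        intro m hm
        obtain ⟨w, hw⟩ := hall ⟨m, hm⟩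
        exact ((hG _ _).1 hw).1
      obtain ⟨u, hu⟩ := hinner Q ρ hρ hQ
      have hxQ : (x : Ω) ∈ Q := by rw [hQ]; exact x.2
      have hst : ((x, u * x * u⁻¹) : KK S) ∈ stabilizer (KK S) (sec c i) := by
        refine (hG _ _).2 ⟨hxQ, ?_⟩
        exact hu ⟨x, hxQ⟩
      have hP : Pv (sec c i) (f x) := ⟨x, _, hst, by simpa using (frattini ↥S).one_mem, hfcomm _ _⟩
      exact hvh _ _ hP
    rw [hprod, Finset.prod_congr rfl hfixv, ← hFe, ← hprod₀, Finset.prod_const, Finset.card_univ, card_R hgr]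
  obtain ⟨fp, hW, hL⟩ := exists_twist hgr hmk hJ hφ
  have ht := Tv_conj f hfree (sec_spec c) (LL c ⟨a, (source_le F hφ) a.2⟩) (LL c ⟨φ a, (F.le_of_mem hφ).2 a⟩) fp (LL_comm c _) (LL_comm c _) hW (hL a)
  rw [hV, hV] at ht
  have hcop : Nat.Coprime (JJ c) p := ((Nat.Prime.coprime_iff_not_dvd hp).2 hJ).symm
  have h₄ : (f ⟨a, (source_le F hφ) a.2⟩ * (f ⟨φ a, (F.le_of_mem hφ).2 a⟩)⁻¹) ^ JJ c = 1 := by
    rw [mul_pow, inv_pow]
    rw [inv_pow, inv_pow] at ht
    rw [inv_inj.1 ht, mul_inv_cancel]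
    
  have h₆ := Nat.eq_one_of_dvd_coprimes hcop (orderOf_dvd_of_pow_eq_one h₄) (orderOf_dvd_of_pow_eq_one (hAp _))
  rw [orderOf_eq_one_iff] at h₆
  exact (mul_inv_eq_one.1 h₆).symm

end CfsgLib.Bis
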