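import Cfsg.Agent.Lib.MX.Bis8

/-! The descent along central factors inside the Frattini subgroup. -/

set_option autoImplicit false
set_option linter.unusedSectionVars false
set_option linter.unusedVariables false
set_option linter.style.haveILetI false

open Subgroup Cfsg Cfsg.FusionSystem CfsgLib.Fusion MulAction
open scoped commutatorElement

namespace CfsgLib.Bis

universe u
variable {Ω : Type u} [Group Ω] {S : Subgroup Ω} [Finite S] {p : ℕ} [Fact p.Prime]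

/-- all maps are `S`-conjugations modulo `T` -/
def MapH (F : FusionSystem S) (T : Subgroup ↥S) : Prop :=
  ∀ (P : Subgroup Ω) (φ : P →* Ω) (hφ : φ ∈ F.Hom P), ∃ s : ↥S, ∀ x : P,
    (s * (⟨x, source_le F hφ x.2⟩ : ↥S) * s⁻¹)⁻¹ * (⟨φ x, (F.le_of_mem hφ).2 x⟩ : ↥S) ∈ T

/-- subsystem of maps that are conjugations modulo `T` -/
def modSys (F : FusionSystem S) (T : Subgroup ↥S) [hT : T.Normal] : FusionSystem S where
  Hom P := {φ | ∃ hφ : φ ∈ F.Hom P, ∃ s : ↥S, ∀ x : P,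
    (s * (⟨x, source_le F hφ x.2⟩ : ↥S) * s⁻¹)⁻¹ * (⟨φ x, (F.le_of_mem hφ).2 x⟩ : ↥S) ∈ T}
  le_of_mem := fun ⟨hφ, _⟩ => F.le_of_mem hφ
  injective_of_mem := fun ⟨hφ, _⟩ => F.injective_of_mem hφ
  conj_mem := by
    intro P g hP hg
    refine ⟨F.conj_mem hP hg, ⟨g, hg⟩, fun x => ?_⟩
    have : (⟨g, hg⟩ * (⟨x, source_le F (F.conj_mem hP hg) x.2⟩ : ↥S) * (⟨g, hg⟩ : ↥S)⁻¹)⁻¹ * (⟨conjHom P g x, (F.le_of_mem (F.conj_mem hP hg)).2 x⟩ : ↥S) = 1 := by
      apply Subtype.ext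
      simp [conjHom]
      group
    rw [this]; exact T.one_mem
  comp_mem := by
    rintro P Q φ ψ ⟨hφ, s, hs⟩ ⟨hψ, t, ht⟩ h
    refine ⟨F.comp_mem hφ hψ h, t * s, fun x => ?_⟩
    have h₁ := hs x
    have h₂ := ht ⟨φ x, h x⟩
    have h₃ := hT.conj_mem _ h₁ t
    have := T.mul_mem h₃ h₂
    have e : (t * ((s * ⟨x, source_le F hφ x.2⟩ * s⁻¹)⁻¹ * ⟨φ x, (F.le_of_mem hφ).2 x⟩) * t⁻¹) * ((t * ⟨φ x, (F.le_of_mem hφ).2 x⟩ * t⁻¹)⁻¹ * ⟨ψ ⟨φ x, h x⟩, (F.le_of_mem hψ).2 _⟩) = (t * s * ⟨x, source_le F hφ x.2⟩ * (t * s)⁻¹)⁻¹ * (⟨ψ ⟨φ x, h x⟩, (F.le_of_mem hψ).2 _⟩ : ↥S) := by group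
    rw [e] at this
    exact this
  inv_mem := by
    rintro P φ ⟨hφ, s, hs⟩
    obtain ⟨ψ, hψ, hv⟩ := F.inv_mem hφ
    refine ⟨ψ, ⟨hψ, s⁻¹, ?_⟩, hv⟩
    rintro ⟨_, x, rfl⟩
    have h₁ := hT.conj_mem _ (T.inv_mem (hs x)) s⁻¹
    convert h₁ using 1
    apply Subtype.ext
    simp only [Subgroup.coe_mul, InvMemClass.coe_inv]
    rw [hv x]
    group

theorem mapH_step (hS : IsPGroup p S) {F : FusionSystem S} (hF : F.IsSaturated p) {c : Subgroup (KK S) → ℕ}
    (hgr : ∀ E, c E ≠ 0 → IsGr F E)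
    (hmk : ∀ (Q Q' : Subgroup Ω) (E E' : Subgroup (KK S)), IsGrOn F Q E → IsGrOn F Q' E' → F.IsConj Q Q' → mk c E = mk c E')
    (hJ : ¬ p ∣ JJ c) (T : Subgroup ↥S) [hTn : T.Normal] (hTΦ : T ≤ frattini ↥S) (hH : MapH F T) (hT : T ≠ ⊥) :
    ∃ M : Subgroup ↥S, M.Normal ∧ M < T ∧ MapH F M := by
  have hpp : p.Prime := Fact.out
  obtain ⟨M, hMT, hMn, hcard, hcent⟩ := exists_normal_index_p' hS T hTn hT
  have hMlt : M < T := by
    refine lt_of_le_of_ne hMT (fun h => ?_)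
    rw [h] at hcard
    have hpos : 0 < Nat.card T := Nat.card_pos
    have := hpp.one_lt
    nlinarith
  refine ⟨M, hMn, hMlt, ?_⟩
  haveI := hMn
  have hidx : (M.subgroupOf T).index = p := by
    have h₁ := Subgroup.index_mul_card (M.subgroupOf T)
    rw [Nat.card_congr (subgroupOfEquivOfLe hMT).toEquiv, hcard] at h₁
    exact Nat.eq_of_mul_eq_mul_right Nat.card_pos h₁
  have hAc : Nat.card (↥T ⧸ M.subgroupOf T) = p := hidx
  haveI : IsCyclic (↥T ⧸ M.subgroupOf T) := isCyclic_of_prime_card hAc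
  letI : CommGroup (↥T ⧸ M.subgroupOf T) := IsCyclic.commGroup
  let f : ↥T →* (↥T ⧸ M.subgroupOf T) := QuotientGroup.mk' (M.subgroupOf T)
  have hfeq : ∀ a b : ↥T, f a = f b ↔ (a : ↥S)⁻¹ * (b : ↥S) ∈ M := by
    intro a b
    change (QuotientGroup.mk a : ↥T ⧸ M.subgroupOf T) = QuotientGroup.mk b ↔ _
    rw [QuotientGroup.eq, mem_subgroupOf]
    simp
  have hfinv : ∀ (s : ↥S) (x : ↥T), f ⟨s * x * s⁻¹, Subgroup.Normal.conj_mem hTn x x.2 s⟩ = f x := by
    intro s x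
    rw [hfeq]
    have h₁ := M.inv_mem (hcent x x.2 s)
    have h₂ := hMn.conj_mem _ h₁ (x : ↥S)⁻¹
    have e : (x : ↥S)⁻¹ * (s * x * s⁻¹ * (x : ↥S)⁻¹)⁻¹ * (x : ↥S)⁻¹⁻¹ = (s * x * s⁻¹)⁻¹ * x := by group
    rw [e] at h₂
    exact h₂
  have hH1 : ∀ y : YS c, ∃ s : ↥S, ∀ x x' : ↥S, ((x, x') : KK S) ∈ stabilizer (KK S) y → (s * x * s⁻¹)⁻¹ * x' ∈ T := by
    intro y
    obtain ⟨Q, ρ, hρ, hG⟩ := stab_isGr hgr y
    obtain ⟨s, hs⟩ := hH Q ρ hρ
    refine ⟨s, fun x x' hm => ?_⟩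
    obtain ⟨h₁, h₂⟩ := (hG x x').1 hm
    have := hs ⟨x, h₁⟩
    have e : (⟨ρ ⟨x, h₁⟩, (F.le_of_mem hρ).2 _⟩ : ↥S) = x' := Subtype.ext h₂
    rwa [e] at this
  have hTmem : ∀ (P : Subgroup Ω) (φ : P →* Ω) (hφ : φ ∈ F.Hom P) (a : P), (⟨a, source_le F hφ a.2⟩ : ↥S) ∈ T → (⟨φ a, (F.le_of_mem hφ).2 a⟩ : ↥S) ∈ T := by
    intro P φ hφ a ha
    obtain ⟨s, hs⟩ := hH P φ hφ
    have h₁ := hTn.conj_mem _ ha s
    have := T.mul_mem h₁ (hs a)
    rwa [mul_inv_cancel_left] at this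
  have hstab : ∀ (P : Subgroup Ω) (φ : P →* Ω) (hφ : φ ∈ F.Hom P) (a : P), (⟨a, source_le F hφ a.2⟩ : ↥S) ∈ T →
      (⟨a, source_le F hφ a.2⟩ : ↥S)⁻¹ * (⟨φ a, (F.le_of_mem hφ).2 a⟩ : ↥S) ∈ M := by
    intro P φ hφ a ha
    have ha' := hTmem P φ hφ a ha
    have := thmA hgr hmk hJ T hTΦ hH1 hAc f hfinv hφ a ha ha'
    have h₂ := (hfeq ⟨_, ha⟩ ⟨_, ha'⟩).1 this.symm
    exact h₂
  have hsub : ∀ P : Subgroup Ω, F.Hom P ⊆ (modSys F M).Hom P := by
    refine hom_subset_of_aut hS F hF (modSys F M) ?_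
    intro R hfn _ α hα
    have hRS : R ≤ S := hfn.1
    obtain ⟨-, R₀, hR₀⟩ := fullyAutomized_of_fullyNormalized hS F hF hfn
    haveI : Finite R := finite_of_le hRS
    haveI : Finite (MulAut R) := finite_mulAut _
    obtain ⟨β, hβ, τ, hτ, hατ⟩ := exists_residual_mul_sylow R₀ ⟨α, hα⟩
    have hτ' : τ.1 ∈ (modSys F M).autGroup R := by
      have h₁ : τ ∈ (R₀ : Subgroup (F.autGroup R)) := hτ
      rw [hR₀, mem_subgroupOf] at h₁
      obtain ⟨g, hg, hv⟩ := mem_autInducedBy.1 h₁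
      rw [mem_autGroup_iff _ hRS]
      have hm := (mem_autGroup_iff F hRS).1 τ.2
      refine ⟨hm, ⟨g, hg⟩, fun x => ?_⟩
      have : ((⟨g, hg⟩ : ↥S) * (⟨x, source_le F hm x.2⟩ : ↥S) * (⟨g, hg⟩ : ↥S)⁻¹)⁻¹ * (⟨(R.subtype.comp τ.1.toMonoidHom) x, (F.le_of_mem hm).2 x⟩ : ↥S) = 1 := by
        apply Subtype.ext
        have hv' := hv x
        simp only [Subgroup.coe_mul, InvMemClass.coe_inv, OneMemClass.coe_one]
        change (g * (x : Ω) * g⁻¹)⁻¹ * ((τ.1 x : R) : Ω) = 1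
        rw [hv']; group
      rw [this]; exact M.one_mem
    have hβ' : β.1 ∈ (modSys F M).autGroup R := by
      have hcl : pResidual p (F.autGroup R) ≤ ((modSys F M).autGroup R).comap (F.autGroup R).subtype := by
        refine (Subgroup.closure_le _).2 ?_
        intro a₀ ha₀
        have hcop : Nat.Coprime (orderOf a₀) p := ha₀
        change a₀.1 ∈ (modSys F M).autGroup R
        rw [mem_autGroup_iff _ hRS]
        have hm := (mem_autGroup_iff F hRS).1 a₀.2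
        refine ⟨hm, 1, fun x => ?_⟩
        obtain ⟨n, hn⟩ : ∃ n, n = orderOf a₀ := ⟨_, rfl⟩
        rw [← hn] at hcop
        have hapow : a₀.1 ^ n = 1 := by
          have := pow_orderOf_eq_one a₀
          rw [← hn] at this
          exact congrArg Subtype.val this
        let toS : R →* ↥S := Subgroup.inclusion hRS
        let a : R → R := fun r => a₀.1 r
        have haval : ∀ r, (⟨(R.subtype.comp a₀.1.toMonoidHom) r, (F.le_of_mem hm).2 r⟩ : ↥S) = toS (a r) := fun r => rfl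
        -- first modulo `T`
        obtain ⟨s, hs⟩ := hH R _ hm
        let q₀ : ↥S →* ↥S ⧸ T := QuotientGroup.mk' T
        have hq₀ : ∀ r, q₀ (toS (a r)) = q₀ s * q₀ (toS r) * (q₀ s)⁻¹ := by
          intro r
          have h₁ : (QuotientGroup.mk (s * toS r * s⁻¹) : ↥S ⧸ T) = QuotientGroup.mk (toS (a r)) := QuotientGroup.eq.2 (hs r)
          have h₂ : q₀ (s * toS r * s⁻¹) = q₀ (toS (a r)) := h₁
          rw [← h₂, map_mul, map_mul, map_inv]
        have hq₀k : ∀ (k : ℕ) r, q₀ (toS ((a₀.1 ^ k) r)) = q₀ s ^ k * q₀ (toS r) * (q₀ s ^ k)⁻¹ := by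
          intro k r
          induction k with
          | zero => simp
          | succ k ih =>
            rw [pow_succ', MulAut.mul_apply]
            rw [hq₀ ((a₀.1 ^ k) r), ih, pow_succ']
            group
        have hcomm₀ : ∀ r, q₀ s ^ n * q₀ (toS r) * (q₀ s ^ n)⁻¹ = q₀ (toS r) := by
          intro r
          have := hq₀k n r
          rw [hapow] at this
          exact this.symm
        obtain ⟨k₀, hk₀⟩ := hS s
        have hs1 : ∃ e, s = (s ^ n) ^ e := by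
          have h1q : 1 < p ^ (k₀ + 1) := Nat.one_lt_pow (Nat.succ_ne_zero k₀) hpp.one_lt
          have hcop2 : Nat.Coprime n (p ^ (k₀ + 1)) := Nat.Coprime.pow_right _ hcop
          obtain ⟨e, -, he⟩ := Nat.exists_mul_mod_eq_one_of_coprime hcop2 h1q
          refine ⟨e, ?_⟩
          have hee : n * e = 1 + p ^ (k₀ + 1) * (n * e / p ^ (k₀ + 1)) := by
            have := Nat.div_add_mod (n * e) (p ^ (k₀ + 1))
            rw [he] at this
            omega
          rw [← pow_mul, hee, pow_add, pow_one, pow_mul, pow_succ, pow_mul, hk₀, one_pow, one_pow, mul_one]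
        have hcomm₁ : ∀ r, q₀ s * q₀ (toS r) * (q₀ s)⁻¹ = q₀ (toS r) := by
          intro r
          obtain ⟨e, he⟩ := hs1
          have hc : Commute (q₀ s ^ n) (q₀ (toS r)) := by
            have := hcomm₀ r
            rw [mul_inv_eq_iff_eq_mul] at this
            exact this
          have hc2 : Commute (q₀ s) (q₀ (toS r)) := by
            have e₂ : q₀ s = (q₀ s ^ n) ^ e := by
              conv_lhs => rw [he]
              rw [map_pow, map_pow]
            rw [e₂]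
            exact hc.pow_left e
          rw [hc2.eq, mul_inv_cancel_right]
        have hqT : ∀ r, (toS r)⁻¹ * toS (a r) ∈ T := by
          intro r
          have h₁ := hq₀ r
          rw [hcomm₁] at h₁
          exact QuotientGroup.eq.1 (h₁.symm)
        -- then modulo `M`
        let q : ↥S →* ↥S ⧸ M := QuotientGroup.mk' M
        have hq₂ : ∀ r, (toS r)⁻¹ * toS (a r) = toS (r⁻¹ * a r) := by
          intro r; simp
        have hu : ∀ r, q ((toS (a r))⁻¹ * toS (a (a r))) = q ((toS r)⁻¹ * toS (a r)) := by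
          intro r
          have hmemT : (⟨(r⁻¹ * a r : R), source_le F hm (r⁻¹ * a r : R).2⟩ : ↥S) ∈ T := by
            have := hqT r
            rw [hq₂] at this
            exact this
          have h₁ := hstab R _ hm (r⁻¹ * a r) hmemT
          have h₂ : (QuotientGroup.mk (toS (r⁻¹ * a r)) : ↥S ⧸ M) = QuotientGroup.mk (toS (a (r⁻¹ * a r))) := QuotientGroup.eq.2 h₁
          have h₃ : a (r⁻¹ * a r) = (a r)⁻¹ * a (a r) := by
            simp [a]
          rw [h₃] at h₂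
          rw [hq₂, hq₂]
          exact h₂.symm
        have huk : ∀ (k : ℕ) r, q ((toS ((a₀.1 ^ k) r))⁻¹ * toS (a ((a₀.1 ^ k) r))) = q ((toS r)⁻¹ * toS (a r)) := by
          intro k r
          induction k with
          | zero => simp
          | succ k ih =>
            rw [pow_succ', MulAut.mul_apply]
            exact (hu _).trans ih
        have hxk : ∀ (k : ℕ), q (toS ((a₀.1 ^ k) x)) = q (toS x) * q ((toS x)⁻¹ * toS (a x)) ^ k := by
          intro k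
          induction k with
          | zero => simp
          | succ k ih =>
            have h₁ : toS (a ((a₀.1 ^ k) x)) = toS ((a₀.1 ^ k) x) * ((toS ((a₀.1 ^ k) x))⁻¹ * toS (a ((a₀.1 ^ k) x))) := by group
            rw [pow_succ', MulAut.mul_apply]
            change q (toS (a ((a₀.1 ^ k) x))) = _
            rw [h₁, map_mul, huk, ih, pow_succ, mul_assoc]
        have hun : q ((toS x)⁻¹ * toS (a x)) ^ n = 1 := by
          have := hxk n
          rw [hapow] at this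
          exact (mul_eq_left.1 this.symm)
        have hup : q ((toS x)⁻¹ * toS (a x)) ^ p = 1 := by
          have h₁ := pow_card_eq_one' (x := f ⟨_, hqT x⟩)
          rw [hAc, ← map_pow] at h₁
          have h₂ : (⟨_, hqT x⟩ : ↥T) ^ p ∈ M.subgroupOf T := by
            have : (QuotientGroup.mk ((⟨_, hqT x⟩ : ↥T) ^ p) : ↥T ⧸ M.subgroupOf T) = 1 := h₁
            exact (QuotientGroup.eq_one_iff _).1 this
          rw [mem_subgroupOf] at h₂
          have h₃ : (((toS x)⁻¹ * toS (a x)) ^ p : ↥S) ∈ M := by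
            simpa using h₂
          rw [← map_pow]
          exact (QuotientGroup.eq_one_iff _).2 h₃
        have h₆ := Nat.eq_one_of_dvd_coprimes hcop (orderOf_dvd_of_pow_eq_one hun) (orderOf_dvd_of_pow_eq_one hup)
        rw [orderOf_eq_one_iff] at h₆
        have h₇ : (toS x)⁻¹ * toS (a x) ∈ M := (QuotientGroup.eq_one_iff _).1 h₆
        have e : ((1 : ↥S) * (⟨x, source_le F hm x.2⟩ : ↥S) * (1 : ↥S)⁻¹)⁻¹ * (⟨(R.subtype.comp a₀.1.toMonoidHom) x, (F.le_of_mem hm).2 x⟩ : ↥S) = (toS x)⁻¹ * toS (a x) := by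
          apply Subtype.ext
          simp [toS, a]
        rw [e]
        exact h₇
      exact hcl hβ
    have hαe : α = β.1 * τ.1 := congrArg Subtype.val hατ
    rw [hαe]
    exact Subgroup.mul_mem _ hβ' hτ'
  intro P φ hφ
  obtain ⟨_, s, hs⟩ := hsub P hφ
  exact ⟨s, hs⟩

theorem mapH_bot (hS : IsPGroup p S) {F : FusionSystem S} (hF : F.IsSaturated p) {c : Subgroup (KK S) → ℕ}
    (hgr : ∀ E, c E ≠ 0 → IsGr F E)
    (hmk : ∀ (Q Q' : Subgroup Ω) (E E' : Subgroup (KK S)), IsGrOn F Q E → IsGrOn F Q' E' → F.IsConj Q Q' → mk c E = mk c E')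
    (hJ : ¬ p ∣ JJ c) (T : Subgroup ↥S) (hTn : T.Normal) (hTΦ : T ≤ frattini ↥S) (hH : MapH F T) : MapH F (⊥ : Subgroup ↥S) := by
  induction' hn : Nat.card T using Nat.strong_induction_on with n ih generalizing T
  by_cases hT : T = ⊥
  · rw [← hT]; exact hH
  · haveI := hTn
    obtain ⟨M, hMn, hMlt, hM⟩ := mapH_step hS hF hgr hmk hJ T hTΦ hH hT
    have hlt : Nat.card M < n := by
      rw [← hn]
      exact lt_of_not_ge (fun hge => hMlt.ne (Subgroup.eq_of_le_of_card_ge hMlt.le hge))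
    exact ih _ hlt M hMn (hMlt.le.trans hTΦ) hM rfl

theorem mapH_frattini (hS : IsPGroup p S) {F : FusionSystem S} {c : Subgroup (KK S) → ℕ}
    (hgr : ∀ E, c E ≠ 0 → IsGr F E)
    (hmk : ∀ (Q Q' : Subgroup Ω) (E E' : Subgroup (KK S)), IsGrOn F Q E → IsGrOn F Q' E' → F.IsConj Q Q' → mk c E = mk c E')
    (hJ : ¬ p ∣ JJ c)
    (hinner : ∀ (Q : Subgroup Ω) (ρ : Q →* Ω), ρ ∈ F.Hom Q → Q = S → ∃ u : ↥S, ∀ x : Q, ρ x = u * (x : Ω) * (u : Ω)⁻¹)
    (hΦ : F.StronglyClosed ((frattini ↥S).map S.subtype)) : MapH F (frattini ↥S) := by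
  intro P φ hφ
  refine ⟨1, fun x => ?_⟩
  have e : ((1 : ↥S) * (⟨x, source_le F hφ x.2⟩ : ↥S) * (1 : ↥S)⁻¹)⁻¹ = (⟨x, source_le F hφ x.2⟩ : ↥S)⁻¹ := by simp
  rw [e, frattini, Order.radical]
  simp only [Subgroup.mem_iInf]
  intro N hN
  have hN' : IsCoatom N := hN
  obtain ⟨hn, hi⟩ := CfsgLib.Solv.coatom_of_pgroup hS hN'
  haveI := hn
  have hAc : Nat.card (↥S ⧸ N) = p := hi
  haveI : IsCyclic (↥S ⧸ N) := isCyclic_of_prime_card hAc
  letI : CommGroup (↥S ⧸ N) := IsCyclic.commGroup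
  have := step_a hS hgr hmk hJ hinner hΦ hAc (QuotientGroup.mk' N) hφ x
  exact QuotientGroup.eq.1 this.symm

theorem inner_of_frattini (hS : IsPGroup p S) {F : FusionSystem S} (hF : F.IsSaturated p)
    (hinner : ∀ (Q : Subgroup Ω) (ρ : Q →* Ω), ρ ∈ F.Hom Q → Q = S → ∃ u : ↥S, ∀ x : Q, ρ x = u * (x : Ω) * (u : Ω)⁻¹)
    (hΦ : F.StronglyClosed ((frattini ↥S).map S.subtype)) :
    ∀ (P : Subgroup Ω) (φ : P →* Ω), φ ∈ F.Hom P → ∃ u ∈ S, ∀ x : P, φ x = u * (x : Ω) * u⁻¹ := by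
  obtain ⟨c, hgr, hmk, hJ⟩ := exists_char hS F hF
  have hb := mapH_bot hS hF hgr hmk hJ (frattini ↥S) inferInstance le_rfl (mapH_frattini hS hgr hmk hJ hinner hΦ)
  intro P φ hφ
  obtain ⟨s, hs⟩ := hb P φ hφ
  refine ⟨s, s.2, fun x => ?_⟩
  have h₁ := Subgroup.mem_bot.1 (hs x)
  have h₂ := congrArg (fun z : ↥S => (z : Ω)) (inv_mul_eq_one.1 h₁)
  exact h₂.symm

end CfsgLib.Bis
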