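import Cfsg.Prelude.Def_FusionComponents
import Cfsg.Agent.Lib.Fusion.Roberts
import Cfsg.Agent.Lib.Fusion.Abelian

/-! Direct products of saturated fusion systems are saturated. -/

set_option autoImplicit false

namespace CfsgLib.Prd

open Subgroup Cfsg Cfsg.FusionSystem CfsgLib.Fusion

section general

variable {Ω : Type*} [Group Ω] {S : Subgroup Ω} [Finite S]

theorem extender_le_normalizer (S R : Subgroup Ω) (ψ : R →* Ω) :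
    extender S R ψ ≤ normalizer (R : Set Ω) :=
  (Subgroup.closure_le _).mpr (fun _ hg => hg.2.1)

theorem extender_le_source (S R : Subgroup Ω) (ψ : R →* Ω) : extender S R ψ ≤ S :=
  (Subgroup.closure_le _).mpr (fun _ hg => hg.1)

/-- Receptivity transfers back along a map of normalizers. -/
theorem receptive_of_normalizer_map (F : FusionSystem S) {P Q : Subgroup Ω}
    (hP : F.IsFullyNormalized P) (hPQ : F.IsConj P Q)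
    {φ : normalizerIn S P →* Ω} (hφ : φ ∈ F.Hom (normalizerIn S P))
    (hv : ∀ x, φ x ∈ normalizerIn S Q) (hm : (P.subgroupOf (normalizerIn S P)).map φ = Q)
    (hQr : F.IsReceptive Q) : F.IsReceptive P := by
  have hPS : P ≤ S := hP.1
  have hPN : P ≤ normalizerIn S P := le_inf hPS Subgroup.le_normalizer
  have hQS : Q ≤ S := (le_of_isConj F hPQ).2
  have : Finite Q := finite_of_le hQS
  obtain ⟨ξ, hξ, hξe⟩ := F.inv_mem hφ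
  refine ⟨hPS, fun R ψ hψ hrange => ?_⟩
  subst hrange
  have hRS := source_le F hψ
  have hvψ : ∀ x : R, ψ x ∈ normalizerIn S ψ.range := fun x => hPN ⟨x, rfl⟩
  have hω := F.comp_mem hψ hφ hvψ
  set ω : R →* Ω := φ.comp (ψ.codRestrict _ hvψ) with hωdef
  have hωrange : ω.range = Q := by
    rw [← hm]
    apply le_antisymm
    · rintro _ ⟨x, rfl⟩
      exact ⟨ψ.codRestrict _ hvψ x, mem_subgroupOf.mpr ⟨x, rfl⟩, rfl⟩
    · rintro _ ⟨y, hy, rfl⟩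
      obtain ⟨x, hx⟩ := mem_subgroupOf.mp hy
      refine ⟨x, ?_⟩
      show φ (ψ.codRestrict _ hvψ x) = φ y
      congr 1
      exact Subtype.ext hx
  obtain ⟨ω', hω', hω'e⟩ := hQr.2 R ω hω hωrange
  have hgen : ∀ g : Ω, g ∈ S → g ∈ normalizer (R : Set Ω) → ∀ h ∈ S,
      (∀ (x : R) (hx : g * (x : Ω) * g⁻¹ ∈ R), ψ ⟨g * x * g⁻¹, hx⟩ = h * ψ x * h⁻¹) →
      h ∈ normalizerIn S ψ.range := by
    intro g _ hgN h hh he
    refine ⟨hh, ?_⟩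
    have : Finite ψ.range := finite_of_le hPS
    refine mem_normalizer_of_conj_mem ?_
    rintro _ ⟨x, rfl⟩
    have hx := (mem_normalizer_iff.mp hgN x).mp x.2
    rw [← he x hx]
    exact ⟨_, rfl⟩
  have hle : extender S R ψ ≤ extender S R ω := by
    refine (Subgroup.closure_le _).mpr ?_
    rintro g ⟨hgS, hgN, h, hh, he⟩
    refine subset_closure ⟨hgS, hgN, φ ⟨h, hgen g hgS hgN h hh he⟩, (hv _).1, fun x hx => ?_⟩
    have hhN := hgen g hgS hgN h hh he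
    show φ (ψ.codRestrict _ hvψ ⟨g * x * g⁻¹, hx⟩) = φ ⟨h, hhN⟩ * φ (ψ.codRestrict _ hvψ x) * (φ ⟨h, hhN⟩)⁻¹
    rw [← map_inv, ← map_mul, ← map_mul]
    congr 1
    exact Subtype.ext (he x hx)
  have hRE : R ≤ extender S R ω := self_le_extender hRS ω (F.le_of_mem hω).2
  have hval : ∀ m : extender S R ψ, (ω'.comp (Subgroup.inclusion hle)) m ∈ φ.range := by
    intro m
    have hmN : (m : Ω) ∈ normalizer (R : Set Ω) := extender_le_normalizer _ _ _ m.2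
    have hy : ω' ⟨m, hle m.2⟩ ∈ normalizerIn S Q := by
      refine ⟨(F.le_of_mem hω').2 _, mem_normalizer_of_conj_mem ?_⟩
      intro q hq
      rw [← hωrange] at hq ⊢
      obtain ⟨x, rfl⟩ := hq
      have hx := (mem_normalizer_iff.mp hmN x).mp x.2
      have h1 := hω'e x x.2 (hRE x.2)
      have h2 := hω'e _ hx (hRE hx)
      have h3 : (⟨m * (x : Ω) * (m : Ω)⁻¹, hRE hx⟩ : extender S R ω) =
          ⟨m, hle m.2⟩ * ⟨x, hRE x.2⟩ * ⟨m, hle m.2⟩⁻¹ := rfl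
      rw [h3, map_mul, map_mul, map_inv, h1] at h2
      rw [h2]
      exact ⟨_, rfl⟩
    obtain ⟨x, hx⟩ := map_normalizer_surj F hP hPQ hφ hv hy
    exact ⟨x, hx⟩
  refine ⟨_, F.comp_mem (restrict_mem F hω' hle) hξ hval, fun x hxR hxE => ?_⟩
  show ξ ⟨ω' ⟨x, hle hxE⟩, _⟩ = ψ ⟨x, hxR⟩
  have h1 := hω'e x hxR (hle hxE)
  have h2 := hξe (ψ.codRestrict _ hvψ ⟨x, hxR⟩)
  have h3 : (⟨φ (ψ.codRestrict _ hvψ ⟨x, hxR⟩), ⟨_, rfl⟩⟩ : φ.range) =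
      ⟨ω' ⟨x, hle hxE⟩, by rw [h1]; exact ⟨_, rfl⟩⟩ := Subtype.ext h1.symm
  rw [h3] at h2
  exact h2

end general

section proj

variable {Γ Γ' : Type*} [Group Γ] [Group Γ'] (π : Γ →* Γ')

theorem map_mem_extender {T : Subgroup Γ} {T' : Subgroup Γ'}
    (hT : ∀ x ∈ T, π x ∈ T') {R : Subgroup Γ} {ψ : R →* Γ} [Finite (R.map π)] {ψ' : R.map π →* Γ'}
    (hψ : ∀ x : R, ψ' ⟨π x, ⟨x, x.2, rfl⟩⟩ = π (ψ x)) :
    ∀ m ∈ extender T R ψ, π m ∈ extender T' (R.map π) ψ' := by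
  intro m hm
  induction hm using Subgroup.closure_induction with
  | mem g hg =>
    obtain ⟨hgT, hgN, h, hh, he⟩ := hg
    refine subset_closure ⟨hT g hgT, mem_normalizer_of_conj_mem ?_, π h, hT h hh, ?_⟩
    · rintro _ ⟨x, hx, rfl⟩
      have hx' := (mem_normalizer_iff.mp hgN x).mp hx
      exact ⟨_, hx', by simp⟩
    · rintro ⟨_, x, hxR, rfl⟩ hc
      have hx' := (mem_normalizer_iff.mp hgN x).mp hxR
      have h1 := hψ ⟨_, hx'⟩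
      have h2 := hψ ⟨x, hxR⟩
      have h3 := he ⟨x, hxR⟩ hx'
      have h4 : (⟨π g * π x * (π g)⁻¹, hc⟩ : R.map π) = ⟨π (g * x * g⁻¹), ⟨_, hx', rfl⟩⟩ :=
        Subtype.ext (by simp)
      show ψ' ⟨π g * π x * (π g)⁻¹, hc⟩ = π h * ψ' ⟨π x, _⟩ * (π h)⁻¹
      rw [h4, h1]
      simp only [h2, h3, map_mul, map_inv]
  | one => rw [map_one]; exact Subgroup.one_mem _
  | mul a b _ _ ha hb => rw [map_mul]; exact Subgroup.mul_mem _ ha hb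
  | inv a _ ha => rw [map_inv]; exact Subgroup.inv_mem _ ha

theorem range_proj {R : Subgroup Γ} {ψ : R →* Γ} {ψ' : R.map π →* Γ'}
    (hψ : ∀ x : R, ψ' ⟨π x, ⟨x, x.2, rfl⟩⟩ = π (ψ x)) : ψ'.range = ψ.range.map π := by
  apply le_antisymm
  · rintro _ ⟨⟨_, x, hx, rfl⟩, rfl⟩
    exact ⟨ψ ⟨x, hx⟩, ⟨_, rfl⟩, (hψ ⟨x, hx⟩).symm⟩
  · rintro _ ⟨_, ⟨x, rfl⟩, rfl⟩
    exact ⟨⟨π x, _⟩, hψ x⟩

end proj

section prod

variable {Ω₁ Ω₂ : Type*} [Group Ω₁] [Group Ω₂] {S₁ : Subgroup Ω₁} {S₂ : Subgroup Ω₂}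

/-- The product of two maps, on a subgroup of the product. -/
def prodHom {P : Subgroup (Ω₁ × Ω₂)} {A₁ : Subgroup Ω₁} {A₂ : Subgroup Ω₂}
    (h₁ : ∀ x ∈ P, MonoidHom.fst Ω₁ Ω₂ x ∈ A₁) (h₂ : ∀ x ∈ P, MonoidHom.snd Ω₁ Ω₂ x ∈ A₂)
    (φ₁ : A₁ →* Ω₁) (φ₂ : A₂ →* Ω₂) : P →* Ω₁ × Ω₂ where
  toFun x := (φ₁ ⟨_, h₁ _ x.2⟩, φ₂ ⟨_, h₂ _ x.2⟩)
  map_one' := by
    refine Prod.ext ?_ ?_
    · exact map_one φ₁
    · exact map_one φ₂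
  map_mul' x y := by
    refine Prod.ext ?_ ?_
    · exact map_mul φ₁ ⟨_, h₁ _ x.2⟩ ⟨_, h₁ _ y.2⟩
    · exact map_mul φ₂ ⟨_, h₂ _ x.2⟩ ⟨_, h₂ _ y.2⟩

variable {F₁ : FusionSystem S₁} {F₂ : FusionSystem S₂} {E : FusionSystem (S₁.prod S₂)}

theorem prodHom_mem (hE : IsProductSystem F₁ F₂ E) {P : Subgroup (Ω₁ × Ω₂)}
    {A₁ : Subgroup Ω₁} {A₂ : Subgroup Ω₂} (hP : P ≤ S₁.prod S₂)
    (h₁ : ∀ x ∈ P, MonoidHom.fst Ω₁ Ω₂ x ∈ A₁) (h₂ : ∀ x ∈ P, MonoidHom.snd Ω₁ Ω₂ x ∈ A₂)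
    {φ₁ : A₁ →* Ω₁} {φ₂ : A₂ →* Ω₂} (hφ₁ : φ₁ ∈ F₁.Hom A₁) (hφ₂ : φ₂ ∈ F₂.Hom A₂) :
    prodHom h₁ h₂ φ₁ φ₂ ∈ E.Hom P := by
  rw [hE]
  have l₁ : P.map (MonoidHom.fst Ω₁ Ω₂) ≤ A₁ := by
    rintro _ ⟨x, hx, rfl⟩
    exact h₁ x hx
  have l₂ : P.map (MonoidHom.snd Ω₁ Ω₂) ≤ A₂ := by
    rintro _ ⟨x, hx, rfl⟩
    exact h₂ x hx
  exact ⟨hP, _, restrict_mem F₁ hφ₁ l₁, _, restrict_mem F₂ hφ₂ l₂, fun x _ _ => rfl⟩

theorem receptive_prod [Finite S₁] [Finite S₂] (hE : IsProductSystem F₁ F₂ E) {Q : Subgroup (Ω₁ × Ω₂)}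
    (hQ : Q ≤ S₁.prod S₂) (h₁ : F₁.IsReceptive (Q.map (MonoidHom.fst Ω₁ Ω₂)))
    (h₂ : F₂.IsReceptive (Q.map (MonoidHom.snd Ω₁ Ω₂))) : E.IsReceptive Q := by
  refine ⟨hQ, fun R ψ hψ hr => ?_⟩
  obtain ⟨hRS, ψ₁, hψ₁, ψ₂, hψ₂, hc⟩ := (hE R ψ).mp hψ
  have : Finite (R.map (MonoidHom.fst Ω₁ Ω₂)) := finite_of_le (source_le F₁ hψ₁)
  have : Finite (R.map (MonoidHom.snd Ω₁ Ω₂)) := finite_of_le (source_le F₂ hψ₂)
  have e₁ : ∀ x : R, ψ₁ ⟨MonoidHom.fst Ω₁ Ω₂ x, ⟨x, x.2, rfl⟩⟩ = MonoidHom.fst Ω₁ Ω₂ (ψ x) := fun x => by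
    rw [hc x ⟨x, x.2, rfl⟩ ⟨x, x.2, rfl⟩]
    rfl
  have e₂ : ∀ x : R, ψ₂ ⟨MonoidHom.snd Ω₁ Ω₂ x, ⟨x, x.2, rfl⟩⟩ = MonoidHom.snd Ω₁ Ω₂ (ψ x) := fun x => by
    rw [hc x ⟨x, x.2, rfl⟩ ⟨x, x.2, rfl⟩]
    rfl
  obtain ⟨ρ₁, hρ₁, he₁⟩ := h₁.2 _ ψ₁ hψ₁ (by rw [range_proj _ e₁, hr])
  obtain ⟨ρ₂, hρ₂, he₂⟩ := h₂.2 _ ψ₂ hψ₂ (by rw [range_proj _ e₂, hr])
  have m₁ := map_mem_extender (MonoidHom.fst Ω₁ Ω₂) (T := S₁.prod S₂) (T' := S₁) (fun x hx => hx.1) e₁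
  have m₂ := map_mem_extender (MonoidHom.snd Ω₁ Ω₂) (T := S₁.prod S₂) (T' := S₂) (fun x hx => hx.2) e₂
  refine ⟨prodHom m₁ m₂ ρ₁ ρ₂, prodHom_mem hE (extender_le_source _ _ _) m₁ m₂ hρ₁ hρ₂,
    fun x hxR hxE => Prod.ext ?_ ?_⟩
  · exact (he₁ _ ⟨x, hxR, rfl⟩ _).trans (e₁ ⟨x, hxR⟩)
  · exact (he₂ _ ⟨x, hxR, rfl⟩ _).trans (e₂ ⟨x, hxR⟩)

theorem isPGroup_prod {p : ℕ} (h₁ : IsPGroup p S₁) (h₂ : IsPGroup p S₂) : IsPGroup p ↥(S₁.prod S₂) := by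
  rintro ⟨⟨a, b⟩, ha, hb⟩
  obtain ⟨k, hk⟩ := h₁ ⟨a, ha⟩
  obtain ⟨l, hl⟩ := h₂ ⟨b, hb⟩
  have hk' : a ^ p ^ k = 1 := congrArg (fun z : S₁ => (z : Ω₁)) hk
  have hl' : b ^ p ^ l = 1 := congrArg (fun z : S₂ => (z : Ω₂)) hl
  refine ⟨k + l, Subtype.ext (Prod.ext ?_ ?_)⟩
  · show a ^ p ^ (k + l) = 1
    rw [pow_add, pow_mul, hk', one_pow]
  · show b ^ p ^ (k + l) = 1
    rw [pow_add, mul_comm, pow_mul, hl', one_pow]

theorem finite_prod [Finite S₁] [Finite S₂] : Finite ↥(S₁.prod S₂) :=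
  Finite.of_injective (fun x : ↥(S₁.prod S₂) => ((⟨x.1.1, x.2.1⟩ : S₁), (⟨x.1.2, x.2.2⟩ : S₂)))
    (fun a b h => Subtype.ext (Prod.ext (congrArg (fun z : S₁ × S₂ => ((z.1 : S₁) : Ω₁)) h)
      (congrArg (fun z : S₁ × S₂ => ((z.2 : S₂) : Ω₂)) h)))

variable {p : ℕ} [Fact p.Prime]

/-- Fully normalized subgroups of the product are receptive. -/
theorem receptive_of_fullyNormalized_prod [Finite S₁] [Finite S₂] (hp₁ : IsPGroup p S₁) (hp₂ : IsPGroup p S₂)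
    (hF₁ : F₁.IsSaturated p) (hF₂ : F₂.IsSaturated p) (hE : IsProductSystem F₁ F₂ E)
    {Q₀ : Subgroup (Ω₁ × Ω₂)} (hQ₀ : E.IsFullyNormalized Q₀) : E.IsReceptive Q₀ := by
  have : Finite ↥(S₁.prod S₂) := finite_prod
  have hQS := hQ₀.1
  have hP₁ : Q₀.map (MonoidHom.fst Ω₁ Ω₂) ≤ S₁ := by
    rintro _ ⟨x, hx, rfl⟩
    exact (hQS hx).1
  have hP₂ : Q₀.map (MonoidHom.snd Ω₁ Ω₂) ≤ S₂ := by
    rintro _ ⟨x, hx, rfl⟩
    exact (hQS hx).2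
  obtain ⟨Q₁, hc₁, hn₁⟩ := exists_fullyNormalized_conj F₁ hP₁
  obtain ⟨Q₂, hc₂, hn₂⟩ := exists_fullyNormalized_conj F₂ hP₂
  have ha₁ := fullyAutomized_of_fullyNormalized hp₁ F₁ hF₁ hn₁
  have ha₂ := fullyAutomized_of_fullyNormalized hp₂ F₂ hF₂ hn₂
  have hr₁ := receptive_of_fullyCentralized hp₁ F₁ hF₁ (fullyCentralized_of_fullyNormalized hp₁ F₁ hF₁ hn₁)
  have hr₂ := receptive_of_fullyCentralized hp₂ F₂ hF₂ (fullyCentralized_of_fullyNormalized hp₂ F₂ hF₂ hn₂)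
  obtain ⟨τ₁, hτ₁, hv₁, hm₁⟩ := exists_map_normalizer hp₁ F₁ Q₁ _ ha₁ hr₁ hc₁
  obtain ⟨τ₂, hτ₂, hv₂, hm₂⟩ := exists_map_normalizer hp₂ F₂ Q₂ _ ha₂ hr₂ hc₂
  have : Finite (Q₀.map (MonoidHom.fst Ω₁ Ω₂)) := finite_of_le hP₁
  have : Finite (Q₀.map (MonoidHom.snd Ω₁ Ω₂)) := finite_of_le hP₂
  have n₁ : ∀ x ∈ normalizerIn (S₁.prod S₂) Q₀, MonoidHom.fst Ω₁ Ω₂ x ∈ normalizerIn S₁ (Q₀.map (MonoidHom.fst Ω₁ Ω₂)) := by
    intro x hx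
    refine ⟨hx.1.1, mem_normalizer_of_conj_mem ?_⟩
    rintro _ ⟨y, hy, rfl⟩
    exact ⟨_, (mem_normalizer_iff.mp hx.2 y).mp hy, rfl⟩
  have n₂ : ∀ x ∈ normalizerIn (S₁.prod S₂) Q₀, MonoidHom.snd Ω₁ Ω₂ x ∈ normalizerIn S₂ (Q₀.map (MonoidHom.snd Ω₁ Ω₂)) := by
    intro x hx
    refine ⟨hx.1.2, mem_normalizer_of_conj_mem ?_⟩
    rintro _ ⟨y, hy, rfl⟩
    exact ⟨_, (mem_normalizer_iff.mp hx.2 y).mp hy, rfl⟩
  have hτ : prodHom n₁ n₂ τ₁ τ₂ ∈ E.Hom (normalizerIn (S₁.prod S₂) Q₀) :=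
    prodHom_mem hE inf_le_left n₁ n₂ hτ₁ hτ₂
  obtain ⟨τ, hτd⟩ : ∃ τ, τ = prodHom n₁ n₂ τ₁ τ₂ := ⟨_, rfl⟩
  rw [← hτd] at hτ
  have hQ₀N : Q₀ ≤ normalizerIn (S₁.prod S₂) Q₀ := le_inf hQS Subgroup.le_normalizer
  obtain ⟨Q, hQd⟩ : ∃ Q, Q = (Q₀.subgroupOf (normalizerIn (S₁.prod S₂) Q₀)).map τ := ⟨_, rfl⟩
  have hconj : E.IsConj Q₀ Q := by
    refine ⟨τ.comp (Subgroup.inclusion hQ₀N), restrict_mem E hτ hQ₀N, ?_⟩
    rw [hQd]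
    apply le_antisymm
    · rintro _ ⟨x, rfl⟩
      exact ⟨_, mem_subgroupOf.mpr x.2, rfl⟩
    · rintro _ ⟨y, hy, rfl⟩
      exact ⟨⟨y, mem_subgroupOf.mp hy⟩, rfl⟩
  have hQle : Q ≤ S₁.prod S₂ := (le_of_isConj E hconj).2
  have : Finite Q := finite_of_le hQle
  have hv : ∀ x, τ x ∈ normalizerIn (S₁.prod S₂) Q := by
    intro x
    refine ⟨(E.le_of_mem hτ).2 x, mem_normalizer_of_conj_mem ?_⟩
    intro q hq
    rw [hQd] at hq ⊢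
    obtain ⟨y, hy, rfl⟩ := hq
    refine ⟨x * y * x⁻¹, mem_subgroupOf.mpr ?_, by simp⟩
    exact (mem_normalizer_iff.mp x.2.2 y).mp (mem_subgroupOf.mp hy)
  have hproj₁ : Q.map (MonoidHom.fst Ω₁ Ω₂) = Q₁ := by
    rw [← hm₁, hQd]
    apply le_antisymm
    · rintro _ ⟨_, ⟨y, hy, rfl⟩, rfl⟩
      refine ⟨⟨_, n₁ _ y.2⟩, mem_subgroupOf.mpr ⟨_, mem_subgroupOf.mp hy, rfl⟩, ?_⟩
      rw [hτd]
      rfl
    · rintro _ ⟨⟨a, ha⟩, hy, rfl⟩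
      obtain ⟨y, hy', rfl⟩ := mem_subgroupOf.mp hy
      refine ⟨_, ⟨⟨y, hQ₀N hy'⟩, mem_subgroupOf.mpr hy', rfl⟩, ?_⟩
      rw [hτd]
      rfl
  have hproj₂ : Q.map (MonoidHom.snd Ω₁ Ω₂) = Q₂ := by
    rw [← hm₂, hQd]
    apply le_antisymm
    · rintro _ ⟨_, ⟨y, hy, rfl⟩, rfl⟩
      refine ⟨⟨_, n₂ _ y.2⟩, mem_subgroupOf.mpr ⟨_, mem_subgroupOf.mp hy, rfl⟩, ?_⟩
      rw [hτd]
      rfl
    · rintro _ ⟨⟨a, ha⟩, hy, rfl⟩
      obtain ⟨y, hy', rfl⟩ := mem_subgroupOf.mp hy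
      refine ⟨_, ⟨⟨y, hQ₀N hy'⟩, mem_subgroupOf.mpr hy', rfl⟩, ?_⟩
      rw [hτd]
      rfl
  exact receptive_of_normalizer_map E hQ₀ hconj hτ hv hQd.symm
    (receptive_prod hE hQle (hproj₁ ▸ hr₁) (hproj₂ ▸ hr₂))

theorem card_subgroup_prod {G H : Type*} [Group G] [Group H] (A : Subgroup G) (B : Subgroup H) :
    Nat.card (A.prod B) = Nat.card A * Nat.card B := by
  rw [← Nat.card_prod]
  exact Nat.card_congr (Subgroup.prodEquiv A B).toEquiv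

/-- The product of two automorphisms of `S₁`, `S₂`, as an automorphism of `S₁ × S₂`. -/
def prodAut (α₁ : MulAut S₁) (α₂ : MulAut S₂) : MulAut ↥(S₁.prod S₂) where
  toFun x := ⟨((α₁ ⟨x.1.1, x.2.1⟩ : S₁).1, (α₂ ⟨x.1.2, x.2.2⟩ : S₂).1), (α₁ _).2, (α₂ _).2⟩
  invFun x := ⟨((α₁.symm ⟨x.1.1, x.2.1⟩ : S₁).1, (α₂.symm ⟨x.1.2, x.2.2⟩ : S₂).1), (α₁.symm _).2, (α₂.symm _).2⟩
  left_inv x := by
    refine Subtype.ext (Prod.ext ?_ ?_)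
    · simp
    · simp
  right_inv x := by
    refine Subtype.ext (Prod.ext ?_ ?_)
    · simp
    · simp
  map_mul' x y := by
    refine Subtype.ext (Prod.ext ?_ ?_)
    · exact congrArg Subtype.val (map_mul α₁ ⟨x.1.1, x.2.1⟩ ⟨y.1.1, y.2.1⟩)
    · exact congrArg Subtype.val (map_mul α₂ ⟨x.1.2, x.2.2⟩ ⟨y.1.2, y.2.2⟩)

/-- `prodAut` as a homomorphism. -/
def prodAutHom : MulAut S₁ × MulAut S₂ →* MulAut ↥(S₁.prod S₂) where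
  toFun a := prodAut a.1 a.2
  map_one' := by
    ext x
    · rfl
    · rfl
  map_mul' a b := by
    ext x
    · rfl
    · rfl

theorem prodAutHom_injective : Function.Injective (prodAutHom (S₁ := S₁) (S₂ := S₂)) := by
  rintro ⟨a₁, a₂⟩ ⟨b₁, b₂⟩ h
  have hh : ∀ x, prodAutHom (a₁, a₂) x = prodAutHom (b₁, b₂) x := fun x => by rw [h]
  refine Prod.ext ?_ ?_
  · ext x
    have := hh ⟨(x.1, 1), x.2, S₂.one_mem⟩
    exact congrArg (fun z : ↥(S₁.prod S₂) => (z : Ω₁ × Ω₂).1) this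
  · ext x
    have := hh ⟨(1, x.1), S₁.one_mem, x.2⟩
    exact congrArg (fun z : ↥(S₁.prod S₂) => (z : Ω₁ × Ω₂).2) this

theorem fullyAutomized_top_prod [Finite S₁] [Finite S₂] (hp₁ : IsPGroup p S₁) (hp₂ : IsPGroup p S₂)
    (hF₁ : F₁.IsSaturated p) (hF₂ : F₂.IsSaturated p) (hE : IsProductSystem F₁ F₂ E) :
    E.IsFullyAutomized p (S₁.prod S₂) := by
  have : Finite ↥(S₁.prod S₂) := finite_prod
  have : Finite (MulAut ↥(S₁.prod S₂)) := finite_mulAut _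
  have : Finite (MulAut S₁) := finite_mulAut _
  have : Finite (MulAut S₂) := finite_mulAut _
  have hpS : IsPGroup p ↥(S₁.prod S₂) := isPGroup_prod hp₁ hp₂
  refine ⟨le_rfl, (exists_sylow_subgroupOf_iff (autInducedBy_le_autGroup E le_rfl)).mpr
    ⟨isPGroup_autInducedBy hpS _, fun B hB hBp => ?_⟩⟩
  obtain ⟨-, R₁, hR₁⟩ := fullyAutomized_of_fullyNormalized hp₁ F₁ hF₁ (fullyNormalized_top F₁)
  obtain ⟨-, R₂, hR₂⟩ := fullyAutomized_of_fullyNormalized hp₂ F₂ hF₂ (fullyNormalized_top F₂)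
  have hs₁ := (exists_sylow_subgroupOf_iff (autInducedBy_le_autGroup F₁ le_rfl)).mp ⟨R₁, hR₁⟩
  have hs₂ := (exists_sylow_subgroupOf_iff (autInducedBy_le_autGroup F₂ le_rfl)).mp ⟨R₂, hR₂⟩
  -- every element of `Aut_E(S)` is a product
  have hdec : ∀ β ∈ E.autGroup (S₁.prod S₂), ∃ a ∈ (F₁.autGroup S₁).prod (F₂.autGroup S₂),
      prodAutHom a = β := by
    intro β hβ
    have hm := (mem_autGroup_iff E le_rfl).mp hβ
    obtain ⟨-, φ₁, hφ₁, φ₂, hφ₂, hc⟩ := (hE _ _).mp hm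
    have le₁ : S₁ ≤ (S₁.prod S₂).map (MonoidHom.fst Ω₁ Ω₂) := fun x hx =>
      ⟨(x, 1), ⟨hx, S₂.one_mem⟩, rfl⟩
    have le₂ : S₂ ≤ (S₁.prod S₂).map (MonoidHom.snd Ω₁ Ω₂) := fun x hx =>
      ⟨(1, x), ⟨S₁.one_mem, hx⟩, rfl⟩
    have hr₁ := restrict_mem F₁ hφ₁ le₁
    have hr₂ := restrict_mem F₂ hφ₂ le₂
    have hv₁ : ∀ x, φ₁.comp (Subgroup.inclusion le₁) x ∈ S₁ := (F₁.le_of_mem hr₁).2
    have hv₂ : ∀ x, φ₂.comp (Subgroup.inclusion le₂) x ∈ S₂ := (F₂.le_of_mem hr₂).2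
    have hinj₁ : Function.Injective ((φ₁.comp (Subgroup.inclusion le₁)).codRestrict S₁ hv₁) := by
      intro a b hab
      exact F₁.injective_of_mem hr₁ (congrArg (fun z : S₁ => (z : Ω₁)) hab)
    have hinj₂ : Function.Injective ((φ₂.comp (Subgroup.inclusion le₂)).codRestrict S₂ hv₂) := by
      intro a b hab
      exact F₂.injective_of_mem hr₂ (congrArg (fun z : S₂ => (z : Ω₂)) hab)
    let α₁ : MulAut S₁ := MulEquiv.ofBijective _ (Finite.injective_iff_bijective.mp hinj₁)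
    let α₂ : MulAut S₂ := MulEquiv.ofBijective _ (Finite.injective_iff_bijective.mp hinj₂)
    have hα₁ : ∀ x : S₁, ((α₁ x : S₁) : Ω₁) = φ₁ ⟨x, le₁ x.2⟩ := fun _ => rfl
    have hα₂ : ∀ x : S₂, ((α₂ x : S₂) : Ω₂) = φ₂ ⟨x, le₂ x.2⟩ := fun _ => rfl
    refine ⟨(α₁, α₂), ⟨?_, ?_⟩, ?_⟩
    · exact (mem_autGroup_iff F₁ le_rfl).mpr (by
        have : S₁.subtype.comp α₁.toMonoidHom = φ₁.comp (Subgroup.inclusion le₁) := by
          ext x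
          exact hα₁ x
        rw [this]
        exact hr₁)
    · exact (mem_autGroup_iff F₂ le_rfl).mpr (by
        have : S₂.subtype.comp α₂.toMonoidHom = φ₂.comp (Subgroup.inclusion le₂) := by
          ext x
          exact hα₂ x
        rw [this]
        exact hr₂)
    · ext x
      · have := hc x ⟨x, x.2, rfl⟩ ⟨x, x.2, rfl⟩
        exact (congrArg Prod.fst this).symm
      · have := hc x ⟨x, x.2, rfl⟩ ⟨x, x.2, rfl⟩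
        exact (congrArg Prod.snd this).symm
  -- the preimage of `B`
  let B' : Subgroup (MulAut S₁ × MulAut S₂) := B.comap prodAutHom ⊓ (F₁.autGroup S₁).prod (F₂.autGroup S₂)
  have hcardB : Nat.card B ≤ Nat.card B' := by
    have hsurj : ∀ β : B, ∃ a : B', prodAutHom (a : MulAut S₁ × MulAut S₂) = β := by
      intro β
      obtain ⟨a, ha, hae⟩ := hdec β (hB β.2)
      exact ⟨⟨a, ⟨by show prodAutHom a ∈ B; rw [hae]; exact β.2, ha⟩⟩, hae⟩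
    choose f hf using hsurj
    refine Nat.card_le_card_of_injective f fun a b hab => ?_
    have := congrArg (fun z : B' => prodAutHom (z : MulAut S₁ × MulAut S₂)) hab
    simp only [hf] at this
    exact Subtype.ext this
  have hB'p : IsPGroup p B' := by
    let g : B' →* B := (prodAutHom.comp B'.subtype).codRestrict B (fun x => x.2.1)
    refine hBp.of_injective g fun a b hab => ?_
    exact Subtype.ext (prodAutHom_injective (congrArg (fun z : B => (z : MulAut ↥(S₁.prod S₂))) hab))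
  have hB₁ : B'.map (MonoidHom.fst _ _) ≤ F₁.autGroup S₁ := by
    rintro _ ⟨x, hx, rfl⟩
    exact hx.2.1
  have hB₂ : B'.map (MonoidHom.snd _ _) ≤ F₂.autGroup S₂ := by
    rintro _ ⟨x, hx, rfl⟩
    exact hx.2.2
  have hc₁ := hs₁.2 _ hB₁ (hB'p.map _)
  have hc₂ := hs₂.2 _ hB₂ (hB'p.map _)
  have hle : B' ≤ (B'.map (MonoidHom.fst _ _)).prod (B'.map (MonoidHom.snd _ _)) := fun x hx =>
    ⟨⟨x, hx, rfl⟩, ⟨x, hx, rfl⟩⟩
  have hcardB' : Nat.card B' ≤ Nat.card (B'.map (MonoidHom.fst _ _)) * Nat.card (B'.map (MonoidHom.snd _ _)) := by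
    have h1 := Nat.card_le_card_of_injective (Subgroup.inclusion hle) (Subgroup.inclusion_injective hle)
    rwa [card_subgroup_prod] at h1
  have hT : ((autInducedBy S₁ S₁).prod (autInducedBy S₂ S₂)).map prodAutHom ≤
      autInducedBy (S₁.prod S₂) (S₁.prod S₂) := by
    rintro _ ⟨⟨a, b⟩, ⟨ha, hb⟩, rfl⟩
    obtain ⟨g₁, hg₁, hga₁⟩ := mem_autInducedBy.mp ha
    obtain ⟨g₂, hg₂, hga₂⟩ := mem_autInducedBy.mp hb
    refine mem_autInducedBy.mpr ⟨(g₁, g₂), ⟨hg₁, hg₂⟩, fun x => Prod.ext ?_ ?_⟩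
    · exact hga₁ ⟨x.1.1, x.2.1⟩
    · exact hga₂ ⟨x.1.2, x.2.2⟩
  have hcardT : Nat.card (autInducedBy S₁ S₁) * Nat.card (autInducedBy S₂ S₂) ≤
      Nat.card (autInducedBy (S₁.prod S₂) (S₁.prod S₂)) := by
    rw [← card_subgroup_prod]
    refine le_trans ?_ (Nat.card_le_card_of_injective (Subgroup.inclusion hT) (Subgroup.inclusion_injective hT))
    exact le_of_eq (Nat.card_congr (Subgroup.equivMapOfInjective _ _ prodAutHom_injective).toEquiv)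
  exact hcardB.trans (hcardB'.trans ((Nat.mul_le_mul hc₁ hc₂).trans hcardT))

/-- **S5137**. -/
theorem isSaturated_prod [Finite S₁] [Finite S₂] (hp₁ : IsPGroup p S₁) (hp₂ : IsPGroup p S₂)
    (hF₁ : F₁.IsSaturated p) (hF₂ : F₂.IsSaturated p) (hE : IsProductSystem F₁ F₂ E) :
    E.IsSaturated p := by
  have : Finite ↥(S₁.prod S₂) := finite_prod
  intro P hP
  obtain ⟨Q, hPQ, hQ⟩ := exists_fullyNormalized_conj E hP
  exact ⟨Q, hPQ, fullyAutomized_of_criterion (isPGroup_prod hp₁ hp₂) E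
    (fullyAutomized_top_prod hp₁ hp₂ hF₁ hF₂ hE)
    (fun _ hR => receptive_of_fullyNormalized_prod hp₁ hp₂ hF₁ hF₂ hE hR) _ Q rfl hQ,
    receptive_of_fullyNormalized_prod hp₁ hp₂ hF₁ hF₂ hE hQ⟩

end prod

end CfsgLib.Prd
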