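import Cfsg.Agent.Lib.MX.Stab1
import Cfsg.Agent.Lib.Fusion.Realized
import Cfsg.Agent.Lib.Fusion.Normal

/-! Fusion systems of semidirect products; extremely sparse systems. -/

set_option autoImplicit false
set_option linter.unusedSectionVars false
set_option linter.unusedVariables false
set_option linter.style.haveILetI false

open Subgroup Cfsg Cfsg.FusionSystem CfsgLib.Fusion

namespace CfsgLib.MX

section

variable {Ω : Type*} [Group Ω]

/-- The system over `R` given by a subgroup of automorphisms containing the inner ones. -/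
def autSystem (R : Subgroup Ω) (Γ : Subgroup (MulAut R)) (hΓ : Inn R ≤ Γ) : FusionSystem R where
  Hom P := {φ | ∃ h : P ≤ R, ∃ γ ∈ Γ, ∀ x : ↥P, φ x = ((γ ⟨x, h x.2⟩ : ↥R) : Ω)}
  le_of_mem := by
    rintro P φ ⟨h, γ, -, he⟩
    exact ⟨h, fun x => by rw [he]; exact (γ _).2⟩
  injective_of_mem := by
    rintro P φ ⟨h, γ, -, he⟩ a b hab
    rw [he, he] at hab
    have h1 := γ.injective (Subtype.ext hab)
    have h2 := congrArg (fun z : ↥R => (z : Ω)) h1
    exact Subtype.ext h2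
  conj_mem := by
    intro P g hP hg
    refine ⟨hP, MulAut.conj ⟨g, hg⟩, hΓ ⟨_, rfl⟩, fun x => rfl⟩
  comp_mem := by
    rintro P Q φ ψ ⟨h₁, γ₁, hγ₁, he₁⟩ ⟨h₂, γ₂, hγ₂, he₂⟩ h
    refine ⟨h₁, γ₂ * γ₁, mul_mem hγ₂ hγ₁, fun x => ?_⟩
    show ψ ⟨φ x, h x⟩ = _
    rw [he₂]
    have e : (⟨φ x, h₂ (h x)⟩ : ↥R) = γ₁ ⟨x, h₁ x.2⟩ := Subtype.ext (he₁ x)
    simp only [e]
    rfl
  inv_mem := by
    rintro P φ ⟨h, γ, hγ, he⟩
    have hr : φ.range ≤ R := by
      rintro _ ⟨x, rfl⟩
      rw [he]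
      exact (γ _).2
    refine ⟨R.subtype.comp (γ⁻¹.toMonoidHom.comp (Subgroup.inclusion hr)), ⟨hr, γ⁻¹, inv_mem hγ, fun x => rfl⟩, fun x => ?_⟩
    have e : (⟨φ x, hr ⟨x, rfl⟩⟩ : ↥R) = γ ⟨x, h x.2⟩ := Subtype.ext (he x)
    show ((γ⁻¹ (⟨φ x, hr ⟨x, rfl⟩⟩ : ↥R) : ↥R) : Ω) = x
    rw [e]
    simp

theorem inn_normal (R : Type*) [Group R] : (Inn R).Normal := by
  constructor
  rintro _ ⟨r, rfl⟩ g
  refine ⟨g r, ?_⟩
  ext x
  simp [MulAut.conj_apply]

variable {S : Subgroup Ω} [Finite S] {p : ℕ} [Fact p.Prime]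

/-- The system of the semidirect product of a `p`-group with a cyclic group of automorphisms of order prime to `p`. -/
theorem autSystem_isSaturated {R : Subgroup Ω} [Finite R] (hR : IsPGroup p R) (α : MulAut R) (hα : (orderOf α).Coprime p) :
    (autSystem R (Inn R ⊔ zpowers α) le_sup_left).IsSaturated p := by
  classical
  have hRfinM : Finite (MulAut R) := finite_mulAut _
  let G := SemidirectProduct R (zpowers α) (zpowers α).subtype
  have hGfin : Finite G := Finite.of_equiv _ (SemidirectProduct.equivProd (N := R) (G := zpowers α) (φ := (zpowers α).subtype)).symm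
  have hcardG : Nat.card G = Nat.card R * orderOf α := by
    rw [Nat.card_congr (SemidirectProduct.equivProd (N := R) (G := zpowers α) (φ := (zpowers α).subtype)), Nat.card_prod,
      Nat.card_zpowers]
  let ι : ↥R →* G := SemidirectProduct.inl
  have hι : Function.Injective ι := SemidirectProduct.inl_injective
  have hconj : ∀ (r x : ↥R) (a : ↥(zpowers α)),
      (SemidirectProduct.inl r * SemidirectProduct.inr a : G) * ι x * (SemidirectProduct.inl r * SemidirectProduct.inr a : G)⁻¹ =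
        ι (r * (a : MulAut R) x * r⁻¹) := by
    intro r x a
    have h1 := SemidirectProduct.inl_aut (φ := (zpowers α).subtype) a x
    have h2 : (SemidirectProduct.inr a : G) * ι x * (SemidirectProduct.inr a : G)⁻¹ = ι ((a : MulAut R) x) := by
      rw [← map_inv]
      exact h1.symm
    calc (SemidirectProduct.inl r * SemidirectProduct.inr a : G) * ι x * (SemidirectProduct.inl r * SemidirectProduct.inr a : G)⁻¹
        = ι r * ((SemidirectProduct.inr a : G) * ι x * (SemidirectProduct.inr a : G)⁻¹) * (ι r)⁻¹ := by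
          show ι r * (SemidirectProduct.inr a : G) * ι x * (ι r * (SemidirectProduct.inr a : G))⁻¹ = _
          simp only [mul_inv_rev, mul_assoc]
      _ = ι (r * (a : MulAut R) x * r⁻¹) := by rw [h2, map_mul, map_mul, map_inv]
  have hreal : (autSystem R (Inn R ⊔ zpowers α) le_sup_left).IsRealizedBy ι := by
    refine ⟨hι, fun P hP φ hφ => ?_⟩
    constructor
    · rintro ⟨h, γ, hγ, he⟩
      have hγ' : γ ∈ ((Inn R ⊔ zpowers α : Subgroup (MulAut R)) : Set (MulAut R)) := hγ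
      haveI := inn_normal R
      rw [Subgroup.coe_mul_of_right_le_normalizer_left _ _ (by
        rw [Subgroup.normalizer_eq_top]; exact le_top)] at hγ'
      obtain ⟨c, ⟨r, rfl⟩, a, ha, rfl⟩ := hγ'
      refine ⟨SemidirectProduct.inl r * SemidirectProduct.inr ⟨a, ha⟩, fun x => ?_⟩
      rw [hconj]
      congr 1
      apply Subtype.ext
      show φ x = _
      rw [he x]
      rfl
    · rintro ⟨g, hg⟩
      refine ⟨hP, MulAut.conj g.left * (g.right : MulAut R), mul_mem (mem_sup_left ⟨_, rfl⟩) (mem_sup_right g.right.2), fun x => ?_⟩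
      have h1 := hg x
      have h2 := hconj g.left ⟨x, hP x.2⟩ g.right
      rw [SemidirectProduct.inl_left_mul_inr_right] at h2
      rw [h2] at h1
      have h3 := hι h1
      exact congrArg Subtype.val h3
  have hrp : IsPGroup p ι.range := hR.of_surjective ι.rangeRestrict ι.rangeRestrict_surjective
  obtain ⟨T, hT⟩ := hrp.exists_le_sylow
  have hTeq : (T : Subgroup G) = ι.range := by
    symm
    refine Subgroup.eq_of_le_of_card_ge hT ?_
    have hcr : Nat.card ι.range = Nat.card R := by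
      rw [MonoidHom.range_eq_map, Subgroup.card_map_of_injective hι, Subgroup.card_top]
    rw [hcr]
    obtain ⟨t, ht⟩ := IsPGroup.iff_card.mp T.2
    have h1 : Nat.card (T : Subgroup G) ∣ Nat.card G := Subgroup.card_subgroup_dvd_card _
    rw [hcardG, ht] at h1
    rw [ht]
    have h2 : (p ^ t).Coprime (orderOf α) := (Nat.Coprime.pow_left t hα.symm)
    exact Nat.le_of_dvd Nat.card_pos (h2.dvd_of_dvd_mul_right h1)
  exact isSaturated_of_realized hreal T hTeq

/-- The sub-system is contained in the ambient system. -/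
theorem autSystem_sub {F : FusionSystem S} {R : Subgroup Ω} (hRS : R ≤ S) (Γ : Subgroup (MulAut R)) (hΓ : Inn R ≤ Γ)
    (hle : Γ ≤ F.autGroup R) : (autSystem R Γ hΓ).IsSubsystemOf F := by
  rintro P φ ⟨h, γ, hγ, he⟩
  have h1 := restrict_mem F ((mem_autGroup_iff F hRS).mp (hle hγ)) h
  have e : φ = (R.subtype.comp γ.toMonoidHom).comp (Subgroup.inclusion h) := MonoidHom.ext fun x => he x
  rw [e]
  exact h1

/-- An inner automorphism of order prime to `p` of a `p`-group is trivial. -/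
theorem eq_one_of_conj {R : Subgroup Ω} (hR : IsPGroup p R) {α : MulAut R} (hα : (orderOf α).Coprime p) {g : Ω} (hg : g ∈ R)
    (he : ∀ x : ↥R, ((α x : ↥R) : Ω) = g * x * g⁻¹) : α = 1 := by
  have e : α = MulAut.conj (⟨g, hg⟩ : ↥R) := by
    ext x
    rw [he]
    rfl
  obtain ⟨k, hk⟩ := hR ⟨g, hg⟩
  have h1 : α ^ (p ^ k) = 1 := by
    rw [e, ← map_pow, hk, map_one]
  have h2 := orderOf_dvd_of_pow_eq_one h1
  have h3 := Nat.Coprime.eq_one_of_dvd (hα.pow_right k) h2
  exact orderOf_eq_one_iff.mp h3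

variable {F : FusionSystem S}

/-- The hyperfocal subgroup lies in the focal subgroup. -/
theorem hyperfocal_le_focal' (hS : IsPGroup p S) : F.hyperfocalSubgroup p ≤ F.focalSubgroup := by
  refine Subgroup.closure_mono ?_
  rintro y ⟨P, α, x, hP, hα, rfl⟩
  exact ⟨P, _, x, (mem_autGroup_iff F hP).mp α.2, rfl⟩

/-- The main case of an extremely sparse system. -/
theorem sparse_top (hS : IsPGroup p S) (hF : F.IsSaturated p) (α : MulAut S) (q : ℕ) (hq : q.Prime) (hqp : q ≠ p)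
    (hαF : α ∈ F.autGroup S) (hαq : orderOf α = q)
    (hE : ∀ Q : Subgroup Ω, (autSystem S (Inn S ⊔ zpowers α) le_sup_left).Hom Q = F.Hom Q)
    (hxs : ∀ (T : Subgroup Ω) (E : FusionSystem T), E.IsSaturated p → E.IsSubsystemOf F →
      (T = S ∧ ∀ P : Subgroup Ω, E.Hom P = F.Hom P) ∨ (∀ P : Subgroup Ω, E.Hom P = (innerFusionSystem T).Hom P)) :
    F.IsNormal S ∧ F.focalSubgroup = S ∧ F.hyperfocalSubgroup p = S ∧
      ∃ (q : ℕ) (β : MulAut ↥S), q.Prime ∧ q ≠ p ∧ β ∈ F.autGroup S ∧ orderOf β = q ∧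
        (F.autGroup S : Subgroup (MulAut ↥S)) = Inn ↥S ⊔ zpowers β := by
  have hcop : (orderOf α).Coprime p := by
    rw [hαq]
    exact (Nat.coprime_primes hq Fact.out).mpr hqp
  have hΓF : ∀ γ ∈ (Inn S ⊔ zpowers α : Subgroup (MulAut S)), S.subtype.comp γ.toMonoidHom ∈ F.Hom S := by
    intro γ hγ
    rw [← hE]
    exact ⟨le_rfl, γ, hγ, fun x => rfl⟩
  -- normality of `S`
  have hnormal : F.IsNormal S := by
    refine ⟨le_rfl, fun P φ hφ => ?_⟩
    rw [← hE] at hφ
    obtain ⟨h, γ, hγ, he⟩ := hφ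
    have hle : P ⊔ S ≤ S := sup_le h le_rfl
    refine ⟨(S.subtype.comp γ.toMonoidHom).comp (Subgroup.inclusion hle), restrict_mem F (hΓF γ hγ) hle, fun x => (he x).symm, ?_⟩
    apply le_antisymm
    · rintro _ ⟨y, -, rfl⟩
      exact (γ _).2
    · intro y hy
      refine ⟨⟨(γ⁻¹ ⟨y, hy⟩ : ↥S), (le_sup_right : S ≤ P ⊔ S) (γ⁻¹ ⟨y, hy⟩).2⟩, mem_subgroupOf.mpr (γ⁻¹ ⟨y, hy⟩).2, ?_⟩
      show ((γ (⟨((γ⁻¹ ⟨y, hy⟩ : ↥S) : Ω), _⟩ : ↥S) : ↥S) : Ω) = y
      have e : (⟨((γ⁻¹ ⟨y, hy⟩ : ↥S) : Ω), (γ⁻¹ ⟨y, hy⟩).2⟩ : ↥S) = γ⁻¹ ⟨y, hy⟩ := rfl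
      rw [e]
      simp
  -- the automizer
  have hautEq : (F.autGroup S : Subgroup (MulAut ↥S)) = Inn ↥S ⊔ zpowers α := by
    apply le_antisymm
    · intro ξ hξ
      have h1 := (mem_autGroup_iff F le_rfl).mp hξ
      rw [← hE] at h1
      obtain ⟨h, γ, hγ, he⟩ := h1
      have e : ξ = γ := by
        ext x
        exact he x
      rw [e]
      exact hγ
    · intro γ hγ
      exact (mem_autGroup_iff F le_rfl).mpr (hΓF γ hγ)
  -- the hyperfocal subgroup
  have hhyp : F.hyperfocalSubgroup p = S := by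
    by_contra hne
    have hTsc := stronglyClosed_hyperfocal hS F hF
    have hTS : F.hyperfocalSubgroup p ≤ S := hTsc.1
    obtain ⟨T, hTd⟩ : ∃ T, T = F.hyperfocalSubgroup p := ⟨_, rfl⟩
    rw [← hTd] at hTsc hTS hne
    have hTfin : Finite T := finite_of_le hTS
    have hf := restrict_mem F ((mem_autGroup_iff F le_rfl).mp hαF) hTS
    have hfr := (weaklyClosed_of_stronglyClosed F hTsc).2 _ hf
    obtain ⟨χ, hχ, hχe⟩ := exists_aut_of_map F hf hfr
    have hχv : ∀ x : ↥T, ((χ x : ↥T) : Ω) = ((α ⟨x, hTS x.2⟩ : ↥S) : Ω) := fun x => hχe x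
    have hχpow : ∀ (k : ℕ) (x : ↥T), (((χ ^ k) x : ↥T) : Ω) = (((α ^ k) ⟨x, hTS x.2⟩ : ↥S) : Ω) := by
      intro k
      induction k with
      | zero => intro x; rfl
      | succ k ih =>
        intro x
        have e1 : (χ ^ (k + 1)) x = χ ((χ ^ k) x) := by rw [pow_succ']; rfl
        have e2 : (α ^ (k + 1)) ⟨x, hTS x.2⟩ = α ((α ^ k) ⟨x, hTS x.2⟩) := by rw [pow_succ']; rfl
        rw [e1, e2, hχv]
        congr 2
        exact Subtype.ext (ih x)
    have hχq : (orderOf χ).Coprime p := by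
      have h1 : χ ^ q = 1 := by
        ext x
        rw [hχpow, ← hαq, pow_orderOf_eq_one]
        rfl
      have h2 := orderOf_dvd_of_pow_eq_one h1
      exact Nat.Coprime.coprime_dvd_left h2 ((Nat.coprime_primes hq Fact.out).mpr hqp)
    have hsat := autSystem_isSaturated (hS.to_le hTS) χ hχq
    have hle : (Inn T ⊔ zpowers χ : Subgroup (MulAut T)) ≤ F.autGroup T :=
      sup_le (inn_le_autGroup F hTS) ((zpowers_le).mpr hχ)
    rcases hxs T _ hsat (autSystem_sub hTS _ _ hle) with ⟨h1, -⟩ | h2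
    · exact hne h1
    · -- `χ` is inner and hence trivial
      have hm : T.subtype.comp χ.toMonoidHom ∈ (autSystem T (Inn T ⊔ zpowers χ) le_sup_left).Hom T :=
        ⟨le_rfl, χ, mem_sup_right (mem_zpowers χ), fun x => rfl⟩
      rw [h2] at hm
      obtain ⟨-, g, hg, he⟩ := hm
      have hχ1 := eq_one_of_conj (hS.to_le hTS) hχq hg he
      have hs1 : ∀ q₀ : ↥S, (q₀ : Ω) ∈ T → ((α q₀ : ↥S) : Ω) = q₀ := by
        intro q₀ hq₀
        have h3 := hχv ⟨q₀, hq₀⟩
        rw [hχ1] at h3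
        exact h3.symm
      have hres : (⟨α, hαF⟩ : ↥(F.autGroup S)) ∈ pResidual p ↥(F.autGroup S) := by
        refine subset_closure ?_
        show (orderOf (⟨α, hαF⟩ : ↥(F.autGroup S))).Coprime p
        rw [Subgroup.orderOf_mk]
        exact hcop
      have hs2 : ∀ y : ↥S, ((α y : ↥S) : Ω) * (y : Ω)⁻¹ ∈ T := by
        intro y
        have h3 : (y : Ω)⁻¹ * ((α y : ↥S) : Ω) ∈ T := by
          rw [hTd]
          exact subset_closure ⟨S, ⟨α, hαF⟩, y, le_rfl, hres, rfl⟩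
        have h4 := sc_conj hTsc h3 y.2
        have e : (y : Ω) * ((y : Ω)⁻¹ * ((α y : ↥S) : Ω)) * (y : Ω)⁻¹ = ((α y : ↥S) : Ω) * (y : Ω)⁻¹ := by group
        rwa [e] at h4
      have hcore := stab_mem_pCore hS hTsc le_rfl hαF hs1 hs2
      obtain ⟨a, ha, hae⟩ := hcore
      obtain ⟨k, hk⟩ := CfsgLib.PLocal.pCore_isPGroup (p := p) (G := ↥(F.autGroup S)) ⟨a, ha⟩
      have h5 : α ^ (p ^ k) = 1 := by
        have h6 : (a : MulAut S) = α := hae
        rw [← h6]
        have h7 := congrArg (fun z : ↥(pCore p ↥(F.autGroup S)) => (((z : ↥(F.autGroup S)) : MulAut S))) hk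
        exact h7
      have h6 := orderOf_dvd_of_pow_eq_one h5
      have h7 := Nat.Coprime.eq_one_of_dvd (hcop.pow_right k) h6
      rw [hαq] at h7
      exact hq.one_lt.ne' h7
  have hfoc : F.focalSubgroup = S := by
    apply le_antisymm
    · refine (closure_le _).mpr ?_
      rintro y ⟨P, φ, x, hφ, rfl⟩
      exact mul_mem (S.inv_mem (source_le F hφ x.2)) ((F.le_of_mem hφ).2 x)
    · exact hhyp.ge.trans (hyperfocal_le_focal' hS)
  exact ⟨hnormal, hfoc, hhyp, q, α, hq, hqp, hαF, hαq, hautEq⟩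

/-- **Extremely sparse fusion systems**. -/
theorem extremely_sparse (hS : IsPGroup p S) (hF : F.IsSaturated p)
    (hnot : ¬ ∀ P : Subgroup Ω, F.Hom P = (innerFusionSystem S).Hom P)
    (hxs : ∀ (T : Subgroup Ω) (E : FusionSystem T), E.IsSaturated p → E.IsSubsystemOf F →
      (T = S ∧ ∀ P : Subgroup Ω, E.Hom P = F.Hom P) ∨ (∀ P : Subgroup Ω, E.Hom P = (innerFusionSystem T).Hom P)) :
    F.IsNormal S ∧ F.focalSubgroup = S ∧ F.hyperfocalSubgroup p = S ∧
      ∃ (q : ℕ) (β : MulAut ↥S), q.Prime ∧ q ≠ p ∧ β ∈ F.autGroup S ∧ orderOf β = q ∧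
        (F.autGroup S : Subgroup (MulAut ↥S)) = Inn ↥S ⊔ zpowers β := by
  have hex : ∃ P : Subgroup Ω, P ≤ S ∧ ¬ IsPGroup p (F.autGroup P) := by
    by_contra h
    push Not at h
    have h1 := eq_inner_of_pGroup hS F hF h
    exact hnot fun P => congrArg (fun E : FusionSystem S => E.Hom P) h1
  obtain ⟨P, hPS, hnp⟩ := hex
  have hPfin : Finite P := finite_of_le hPS
  have hMfin : Finite (MulAut P) := finite_mulAut _
  have hex2 : ∃ q : ℕ, q.Prime ∧ q ≠ p ∧ q ∣ Nat.card (F.autGroup P) := by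
    by_contra h
    push Not at h
    apply hnp
    refine IsPGroup.iff_card.mpr ⟨_, Nat.eq_prime_pow_of_unique_prime_dvd Nat.card_pos.ne' fun {d} hd hdv => ?_⟩
    by_contra hne
    exact h d hd hne hdv
  obtain ⟨q, hq, hqp, hqd⟩ := hex2
  haveI : Fact q.Prime := ⟨hq⟩
  obtain ⟨a, ha⟩ := exists_prime_orderOf_dvd_card' q hqd
  obtain ⟨α, hαF⟩ := a
  have hαq : orderOf α = q := by
    rw [← ha]
    exact (Subgroup.orderOf_mk _ _).symm
  have hcop : (orderOf α).Coprime p := by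
    rw [hαq]
    exact (Nat.coprime_primes hq Fact.out).mpr hqp
  have hsat := autSystem_isSaturated (hS.to_le hPS) α hcop
  have hle : (Inn P ⊔ zpowers α : Subgroup (MulAut P)) ≤ F.autGroup P :=
    sup_le (inn_le_autGroup F hPS) ((zpowers_le).mpr hαF)
  rcases hxs P _ hsat (autSystem_sub hPS _ _ hle) with ⟨h1, h2⟩ | h3
  · subst h1
    exact sparse_top hS hF α q hq hqp hαF hαq h2 hxs
  · exfalso
    have hm : P.subtype.comp α.toMonoidHom ∈ (autSystem P (Inn P ⊔ zpowers α) le_sup_left).Hom P :=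
      ⟨le_rfl, α, mem_sup_right (mem_zpowers α), fun x => rfl⟩
    rw [h3] at hm
    obtain ⟨-, g, hg, he⟩ := hm
    have h1 := eq_one_of_conj (hS.to_le hPS) hcop hg he
    rw [h1, orderOf_one] at hαq
    exact hq.one_lt.ne hαq

end

end CfsgLib.MX
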